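import Cfsg.Agent.H993.OC.Row
import Cfsg.Agent.H464.ExtAutG
import Cfsg.Agent.H576.Ext.SemiL
import Cfsg.Agent.H328.Gow.Rat
import Cfsg.Agent.OddOrderCharacters.PF9.Reducible

/-!
# S4891, defining characteristic: the engine for the classical groups (helper993)

`hc_wt` : `S = N / scalars` (`D : SemiQ F N S`), `c` a character of `GL_k(K)` with `F.hc c 1` irreducible on `N`, `c`
`p`-rational of degree prime to `p`, fixed by the field automorphisms of `p`-power order and trivial on the scalars of `N`: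
`S` has a character `θ` with `Wt p S A θ` for every `p`-group `A` of automorphisms induced by semisimilarities.
-/

set_option autoImplicit false

open scoped ComplexConjugate
open Cfsg

namespace Cfsg.Agent.H993.OC

open Cfsg.Agent.H145.BR Cfsg.Agent.Characters Cfsg.Agent.H53.HC Cfsg.Agent.H477.HC Cfsg.Agent.H576.Ext
  Cfsg.Agent.H328.Gow Cfsg.Agent.H464.ExtR3 Module

universe u v w

section

variable {K : Type u} [Field K] {V : Type v} [AddCommGroup V] [Module K V] {F : CForm K V}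

/-- the values of `F.hc c 1` -/
theorem hc_mem [FiniteDimensional K V] {k : ℕ} [Fintype (F.Om k)] {c : GL (Fin k) K → ℂ} (hcf : IsClassFunction _ c)
    (E : IntermediateField ℚ ℂ) (h : ∀ A, c A ∈ E) (g : F.iso) : F.hc c (fun _ _ => 1) g ∈ E := by
  classical
  unfold CForm.hc
  refine E.sum_mem fun W _ => ?_
  rw [mul_one]
  by_cases hW : W.1.map (F.iso.subtype g : V →ₗ[K] V) = W.1
  · rw [flagTerm_of F.iso.subtype c hW, cl_eq hcf (finBasisOfFinrankEq K W.1 W.2.2)]
    exact h _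
  · unfold flagTerm
    rw [dif_neg hW]
    exact E.zero_mem

theorem fmap_pow_succ {k : ℕ} (τ : K ≃+* K) (i : ℕ) (c : GL (Fin k) K → ℂ) :
    fmap ((τ ^ i : K ≃+* K) : K →+* K) (fmap (τ : K →+* K) c) = fmap ((τ ^ (i + 1) : K ≃+* K) : K →+* K) c := by
  funext A
  change c _ = c _
  congr 1
  rw [pow_succ']
  ext a b
  rfl

theorem fmap_class {k : ℕ} (τ : K →+* K) {c : GL (Fin k) K → ℂ} (hc : IsClassFunction _ c) :
    IsClassFunction _ (fmap τ c) := by
  intro g h
  change c _ = c _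
  rw [map_mul, map_mul, map_inv]
  exact hc _ _

variable {N : Subgroup F.iso} {S : Type w} [Group S]

/-- iterating a semisimilarity -/
theorem semi_iter [Finite K] [FiniteDimensional K V] [Finite V] {k : ℕ} [Fintype (F.Om k)] (D : SemiQ F N S)
    {α : MulAut S} {s : Semi F} (hs : D.Ind s α) (i : ℕ) : ∀ (c : GL (Fin k) K → ℂ), IsClassFunction _ c → ∀ n : N,
    ∃ n' : N, D.q n' = (α ^ i) (D.q n) ∧
      F.hc c (fun _ _ => 1) n' = F.hc (fmap ((s.τ ^ i : K ≃+* K) : K →+* K) c) (fun _ _ => 1) n := by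
  induction i with
  | zero =>
    intro c _ n
    exact ⟨n, rfl, rfl⟩
  | succ i ih =>
    intro c hc n
    obtain ⟨n₁, h1, h2⟩ := ih (fmap (s.τ : K →+* K) c) (fmap_class _ hc) n
    obtain ⟨n₂, h3⟩ := D.inv s n₁
    refine ⟨n₂, ?_, ?_⟩
    · rw [← hs n₁ n₂ h3, h1, pow_succ']
      rfl
    · rw [← fmap_pow_succ, ← h2]
      refine hc_semi F hc s.τ s.γ s.smul (fun v w => ?_) (fun v => ?_) n₁ n₂ h3
      · rw [s.hB, mul_eq_zero, map_eq_zero]
        exact ⟨fun h => h.resolve_left s.hlam, fun h => Or.inr h⟩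
      · rw [s.hQ, mul_eq_zero, map_eq_zero]
        exact ⟨fun h => h.resolve_left s.hlam, fun h => Or.inr h⟩

/-- **the engine** -/
theorem hc_wt {p : ℕ} [Fact p.Prime] [Finite K] [FiniteDimensional K V] [Finite V] {k : ℕ} [Fintype (F.Om k)]
    (D : SemiQ F N S) [Finite S] {c : GL (Fin k) K → ℂ} (hcf : IsClassFunction _ c)
    (hirr : IsIrrCharacter N (fun n : N => F.hc c (fun _ _ => 1) n))
    {d : ℕ} (hd : c 1 = d) (hpd : ¬ p ∣ d) (hOm : ¬ p ∣ Nat.card (F.Om k)) (h1 : 1 < Nat.card (F.Om k) * d)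
    (hrat : PRat p c) (hfix : ∀ τ : K ≃+* K, ∃ m : ℕ, ¬ p ∣ m ∧ fmap ((τ ^ m : K ≃+* K) : K →+* K) c = c)
    (hscal : ∀ (n : N) (a : Kˣ), (∀ v, ((n : F.iso) : V ≃ₗ[K] V) v = (a : K) • v) →
      c (Matrix.GeneralLinearGroup.scalar (Fin k) a) = c 1)
    {A : Subgroup (MulAut S)} (hA : IsPGroup p A) (hAut : A ≤ autG D) : ∃ θ, Wt p S A θ := by
  classical
  have hp : p.Prime := Fact.out
  have hG : Finite (V ≃ₗ[K] V) := Finite.of_injective (fun e : V ≃ₗ[K] V => (e : V → V)) DFunLike.coe_injective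
  have hker : ∀ n : N, D.q n = 1 → F.hc c (fun _ _ => 1) n = F.hc c (fun _ _ => 1) ((1 : N) : F.iso) := by
    intro n hn
    obtain ⟨a, ha⟩ := (D.ker n).1 hn
    by_cases h0 : a = 0
    · have : ((n : F.iso)) = 1 := by
        apply Subtype.ext
        apply LinearEquiv.ext
        intro v
        have h2 : ∀ v : V, v = 0 := fun v => by
          have h3 := ha v
          rw [h0, zero_smul] at h3
          exact (LinearEquiv.map_eq_zero_iff _).1 h3
        rw [h2 v, map_zero]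
        exact (h2 _).symm
      rw [this]
      rfl
    · exact F.hc_scalar hcf (fun _ _ => 1) (z := (n : F.iso)) (a := Units.mk0 a h0) ha
        (hscal n (Units.mk0 a h0) ha) (fun _ _ => rfl)
  obtain ⟨θ, hθ, hθq⟩ := OddOrderCharacters.PF9.Reducible.exists_of_surjective D.q D.surj hirr hker
  have hdeg : θ 1 = ((Nat.card (F.Om k) * d : ℕ) : ℂ) := by
    rw [← map_one D.q, hθq]
    change F.hc c (fun _ _ => 1) 1 = _
    rw [F.hc_one hcf (fun _ _ => 1) (d := 1) (fun _ _ => rfl), mul_one, hd]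
    push_cast
    rfl
  refine ⟨θ, hθ, ?_, ⟨_, hdeg, fun h => ?_⟩, ?_, ?_⟩
  · intro h
    rw [h, Pi.one_apply] at hdeg
    have h2 : 1 = Nat.card (F.Om k) * d := by exact_mod_cast hdeg
    omega
  · rcases (Nat.Prime.dvd_mul hp).1 h with h | h
    · exact hOm h
    · exact hpd h
  · obtain ⟨n, hn, hn'⟩ := hrat
    refine ⟨n, hn, fun x => ?_⟩
    obtain ⟨y, rfl⟩ := D.surj x
    rw [hθq]
    exact hc_mem hcf _ hn' _
  · intro α hα
    obtain ⟨s, hs⟩ := mem_autG.1 (hAut hα)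
    obtain ⟨j, hj⟩ := hA ⟨α, hα⟩
    have hj' : α ^ p ^ j = 1 := congrArg Subtype.val hj
    obtain ⟨m, hm, hmc⟩ := hfix s.τ
    have h2 : α ^ m ∈ H576.Ext.stab θ := by
      intro x
      obtain ⟨y, rfl⟩ := D.surj x
      obtain ⟨y', h3, h4⟩ := semi_iter D hs m c hcf y
      rw [← h3, hθq, hθq, h4, hmc]
    have h3 : α ^ p ^ j ∈ H576.Ext.stab θ := by
      rw [hj']
      exact one_mem _
    have hco : IsCoprime (m : ℤ) ((p ^ j : ℕ) : ℤ) := by
      rw [Nat.isCoprime_iff_coprime]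
      exact (Nat.Coprime.pow_right j ((Nat.Prime.coprime_iff_not_dvd hp).2 hm).symm)
    obtain ⟨a, b, hab⟩ := hco
    have h4 : α ∈ H576.Ext.stab θ := by
      have h5 : α = (α ^ m) ^ a * (α ^ p ^ j) ^ b := by
        rw [← zpow_natCast, ← zpow_natCast, ← zpow_mul, ← zpow_mul, ← zpow_add, mul_comm (m : ℤ), mul_comm _ b, hab,
          zpow_one]
      rw [h5]
      exact mul_mem (zpow_mem h2 a) (zpow_mem h3 b)
    exact h4

/-- **the engine**, all automorphisms induced by semisimilarities -/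
theorem hc_ocRow {p : ℕ} [Fact p.Prime] [Finite K] [FiniteDimensional K V] [Finite V] {k : ℕ} [Fintype (F.Om k)]
    (D : SemiQ F N S) (hAut : ∀ α : MulAut S, ∃ s : Semi F, D.Ind s α) [Finite S] {c : GL (Fin k) K → ℂ}
    (hcf : IsClassFunction _ c) (hirr : IsIrrCharacter N (fun n : N => F.hc c (fun _ _ => 1) n))
    {d : ℕ} (hd : c 1 = d) (hpd : ¬ p ∣ d) (hOm : ¬ p ∣ Nat.card (F.Om k)) (h1 : 1 < Nat.card (F.Om k) * d)
    (hrat : PRat p c) (hfix : ∀ τ : K ≃+* K, ∃ m : ℕ, ¬ p ∣ m ∧ fmap ((τ ^ m : K ≃+* K) : K →+* K) c = c)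
    (hscal : ∀ (n : N) (a : Kˣ), (∀ v, ((n : F.iso) : V ≃ₗ[K] V) v = (a : K) • v) →
      c (Matrix.GeneralLinearGroup.scalar (Fin k) a) = c 1) : OCRow p S :=
  fun _ hA => hc_wt D hcf hirr hd hpd hOm h1 hrat hfix hscal hA (fun α _ => hAut α)

end

end Cfsg.Agent.H993.OC
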