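import Cfsg.Agent.H993.OC.Abs
import Mathlib.FieldTheory.Finite.Extension
import Cfsg.Agent.H139.Cusp.Orth

/-!
# S4891, defining characteristic: field automorphisms of `p`-power order (helper993)

* `exists_char` : `|K| = p ^ (f₀ p ^ k)`, `r ∣ p ^ f₀ - 1`: a linear character of `Kˣ` of order `r`, fixed by the field
  automorphisms of `p`-power order;
* `frob_pow` : these automorphisms are `x ↦ x ^ p ^ (f₀ i)`; for every `τ` the automorphism `τ ^ f₀` is of this form.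
-/

set_option autoImplicit false

open Cfsg

namespace Cfsg.Agent.H993.OC

universe v

variable {K : Type v} [Field K] [Finite K] {p : ℕ} [Fact p.Prime] [CharP K p]

theorem exists_frob (τ : K ≃+* K) : ∃ n : ℕ, ∀ x : K, τ x = x ^ p ^ n := by
  classical
  have := Fintype.ofFinite K
  let _ : Algebra (ZMod p) K := ZMod.algebra K p
  let σ : K ≃ₐ[ZMod p] K := AlgEquiv.ofRingEquiv (f := τ) (fun x => by
    have : (τ : K →+* K).comp (algebraMap (ZMod p) K) = algebraMap (ZMod p) K := Subsingleton.elim _ _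
    exact RingHom.congr_fun this x)
  obtain ⟨n, hn⟩ := (FiniteField.bijective_frobeniusAlgEquivOfAlgebraic_pow (ZMod p) K).2 σ
  refine ⟨n, fun x => ?_⟩
  have h1 : τ x = σ x := rfl
  rw [h1, ← hn]
  change (FiniteField.frobeniusAlgEquivOfAlgebraic (ZMod p) K ^ (n : ℕ)) x = _
  rw [AlgEquiv.coe_pow, FiniteField.coe_frobeniusAlgEquivOfAlgebraic_iterate, ZMod.card]

omit [Finite K] [Fact p.Prime] [CharP K p] in
theorem frob_iter {τ : K ≃+* K} {n : ℕ} (h : ∀ x : K, τ x = x ^ p ^ n) (m : ℕ) (x : K) : (τ ^ m) x = x ^ p ^ (n * m) := by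
  induction m with
  | zero => rw [pow_zero, Nat.mul_zero, pow_zero, pow_one]; rfl
  | succ m ih =>
    rw [pow_succ']
    change τ ((τ ^ m) x) = _
    rw [ih, h, ← pow_mul, ← pow_add, Nat.mul_succ]

/-- `τ ^ f₀` is a power of `x ↦ x ^ p ^ f₀` -/
theorem frob_pow (f₀ : ℕ) (τ : K ≃+* K) : ∃ i : ℕ, ∀ x : K, (τ ^ f₀) x = x ^ p ^ (f₀ * i) := by
  obtain ⟨n, hn⟩ := exists_frob (p := p) τ
  exact ⟨n, fun x => by rw [frob_iter hn, Nat.mul_comm]⟩

/-- the field automorphisms of `p`-power order -/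
theorem frob_of_order {f₀ k : ℕ} (hf : ¬ p ∣ f₀) (hK : Nat.card K = p ^ (f₀ * p ^ k)) {σ : K ≃+* K} {j : ℕ}
    (hσ : σ ^ p ^ j = 1) : ∃ i : ℕ, ∀ x : K, σ x = x ^ p ^ (f₀ * i) := by
  have hp : p.Prime := Fact.out
  obtain ⟨n, hn⟩ := exists_frob (p := p) σ
  -- `σ = (σ ^ f₀) ^ a` with `f₀ a = 1` modulo `p ^ j`
  have hco : Nat.Coprime f₀ (p ^ j) := Nat.Coprime.pow_right j ((Nat.Prime.coprime_iff_not_dvd hp).2 hf).symm
  obtain ⟨a, ha⟩ : ∃ a : ℕ, f₀ * a ≡ 1 [MOD p ^ j] := by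
    rcases Nat.eq_zero_or_pos j with h0 | h0
    · exact ⟨0, by rw [h0, pow_zero]; exact Nat.modEq_one⟩
    · have h1 : 1 < p ^ j := Nat.one_lt_pow h0.ne' hp.one_lt
      obtain ⟨a, ha⟩ := Nat.exists_mul_mod_eq_one_of_coprime hco h1
      exact ⟨a, by rw [Nat.ModEq, ha.2, Nat.mod_eq_of_lt h1]⟩
  refine ⟨n * a, fun x => ?_⟩
  have h1 : σ ^ (f₀ * a) = σ := by
    have h2 : orderOf σ ∣ p ^ j := orderOf_dvd_of_pow_eq_one hσ
    have h3 : f₀ * a ≡ 1 [MOD orderOf σ] := ha.of_dvd h2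
    rw [pow_eq_pow_iff_modEq.2 h3, pow_one]
  have h2 := frob_iter hn (f₀ * a) x
  rw [h1] at h2
  rw [h2]
  congr 2
  ring

theorem pow_frob_modEq (f₀ i : ℕ) {r : ℕ} (hr : r ∣ p ^ f₀ - 1) : p ^ (f₀ * i) ≡ 1 [MOD r] := by
  have hp : p.Prime := Fact.out
  have h1 : p ^ f₀ ≡ 1 [MOD r] := ((Nat.modEq_iff_dvd' (Nat.one_le_pow _ _ hp.pos)).2 hr).symm
  rw [pow_mul]
  simpa using h1.pow i

/-- **the linear character** -/
theorem exists_char {f₀ k : ℕ} (hf : ¬ p ∣ f₀) (hK : Nat.card K = p ^ (f₀ * p ^ k)) {r : ℕ} (hr : r ∣ p ^ f₀ - 1) :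
    ∃ c : Kˣ →* ℂˣ, (∀ (σ : K ≃+* K) (j : ℕ), σ ^ p ^ j = 1 → Fx c σ) ∧ (∀ x, c x ^ r = 1) ∧
      ∀ m : ℕ, (∀ x, c x ^ m = 1) → r ∣ m := by
  classical
  have hp : p.Prime := Fact.out
  obtain ⟨θ, hθ⟩ := H139.Cusp.exists_theta K
  have hd : p ^ f₀ - 1 ∣ Nat.card Kˣ := by
    rw [Nat.card_units, hK, pow_mul]
    simpa using Nat.sub_dvd_pow_sub_pow (p ^ f₀) 1 (p ^ k)
  obtain ⟨e, he⟩ := hr.trans hd
  have hc0 : ∀ x : Kˣ, (Units.map (θ : K →* ℂ) x) ^ Nat.card Kˣ = 1 := fun x => by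
    rw [← map_pow, pow_card_eq_one', map_one]
  have hcr : ∀ x : Kˣ, ((Units.map (θ : K →* ℂ)) ^ e) x ^ r = 1 := fun x => by
    rw [MonoidHom.pow_apply, ← pow_mul, mul_comm e r, ← he, hc0]
  refine ⟨(Units.map (θ : K →* ℂ)) ^ e, fun σ j hσ a => ?_, hcr, fun m hm => ?_⟩
  · obtain ⟨i, hi⟩ := frob_of_order hf hK hσ
    have h1 : Units.map (σ : K →* K) a = a ^ p ^ (f₀ * i) := Units.ext (hi a)
    rw [h1, map_pow]
    have h2 := pow_frob_modEq (p := p) f₀ i hr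
    have h3 : orderOf (((Units.map (θ : K →* ℂ)) ^ e) a) ∣ r := orderOf_dvd_of_pow_eq_one (hcr a)
    rw [pow_eq_pow_iff_modEq.2 (h2.of_dvd h3), pow_one]
  · obtain ⟨g, hg⟩ := IsCyclic.exists_ofOrder_eq_natCard (α := Kˣ)
    have h1 : (Units.map (θ : K →* ℂ) g) ^ (e * m) = 1 := by
      rw [pow_mul]
      exact hm g
    have h2 : g ^ (e * m) = 1 := by
      rw [← map_pow] at h1
      apply Units.ext
      apply hθ
      have h3 := congrArg Units.val h1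
      rw [Units.coe_map, Units.val_one] at h3
      rw [Units.val_one, map_one]
      exact h3
    have h3 := orderOf_dvd_of_pow_eq_one h2
    rw [hg, he, mul_comm r e] at h3
    have he0 : 0 < e := Nat.pos_of_ne_zero fun h0 => by
      rw [h0, mul_zero] at he
      exact Nat.card_pos.ne' he
    exact Nat.dvd_of_mul_dvd_mul_left he0 h3

end Cfsg.Agent.H993.OC
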