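import Cfsg.Agent.H993.OC.AbsMain
import Cfsg.Agent.H993.OC.Row

/-!
# S4891, defining characteristic: `OCRow` from a root group (helper993)
-/

set_option autoImplicit false

open Cfsg

namespace Cfsg.Agent.H993.OC

open Cfsg.Agent.H145.BR Cfsg.Agent.Characters Cfsg.Agent.H53.HC Cfsg.Agent.OddOrderCharacters.Clifford

universe u v

variable {p : ℕ} [Fact p.Prime] {S : Type u} [Group S] {K : Type v} [Field K]

namespace RootDat

variable {D : RootDat p S K}

theorem U_le_P : (D.U : Subgroup S) ≤ D.P := by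
  intro u hu
  rw [← conj_mem_NX]
  refine D.hchar _ ?_
  ext t
  rw [Subgroup.mem_map]
  constructor
  · rintro ⟨r, hr, rfl⟩
    exact mul_mem (mul_mem hu hr) (inv_mem hu)
  · intro ht
    exact ⟨u⁻¹ * t * u, mul_mem (mul_mem (inv_mem hu) ht) hu, by
      change u * (u⁻¹ * t * u) * u⁻¹ = t
      group⟩

/-- **`OCRow` from a root group**: `c` invariant under the field automorphisms of `p`-power order,
`Ind_P^S (c ∘ μ)` irreducible -/
theorem ocRow [Finite S] [Fintype S] [Finite K] [CharP K p] (c : Kˣ →* ℂˣ)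
    (hcp : ∀ (σ : K ≃+* K) (j : ℕ), σ ^ p ^ j = 1 → Fx c σ)
    (hirr : IsIrrCharacter S (indFun D.P (fun g => (D.lam c g : ℂ)))) (hP : D.P ≠ ⊤) : OCRow p S := by
  classical
  have hp : p.Prime := Fact.out
  intro A hA
  set θ : S → ℂ := indFun D.P (fun g => (D.lam c g : ℂ)) with hθ
  have hθ1 : θ 1 = (D.P.index : ℂ) := indFun_one' D.P (D.lam c)
  have hidx : ¬ p ∣ D.P.index := by
    intro h
    exact D.U.not_dvd_index (h.trans (Subgroup.index_dvd_of_le U_le_P))
  refine ⟨θ, hirr, ?_, ⟨D.P.index, hθ1, hidx⟩, ?_, ?_⟩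
  · intro h
    rw [h, Pi.one_apply] at hθ1
    have h1 : D.P.index = 1 := by exact_mod_cast hθ1.symm
    exact hP (Subgroup.index_eq_one.1 h1)
  · -- `p`-rational
    have hn : ∀ x, D.lam c x ^ (Nat.card Kˣ) = 1 := fun x => by
      change c (D.μ x) ^ _ = 1
      rw [← map_pow, pow_card_eq_one', map_one]
    refine ⟨Nat.card Kˣ, ?_, fun g => indFun_mem D.P (D.lam c) (Nat.card_pos (α := Kˣ)).ne' hn g⟩
    let _ := Fintype.ofFinite K
    obtain ⟨n, hn0, hn⟩ := FiniteField.card K p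
    rw [Nat.card_units, Nat.card_eq_fintype_card, hn]
    intro h
    have h1 : p ∣ p ^ (n : ℕ) := dvd_pow_self p n.2.ne'
    have h2 : 1 ≤ p ^ (n : ℕ) := Nat.one_le_pow _ _ hp.pos
    have h3 : p ∣ 1 := by
      have h4 := (Nat.dvd_sub h1 h)
      rwa [Nat.sub_sub_self h2] at h4
    exact hp.one_lt.ne' (Nat.dvd_one.1 h3)
  · intro α hα x
    obtain ⟨j, hj⟩ := hA ⟨α, hα⟩
    have hj' : α ^ p ^ j = 1 := congrArg Subtype.val hj
    obtain ⟨s, hs⟩ := exists_conj_fix' (D := D) hj'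
    obtain ⟨m, σ, h⟩ := exists_sem (D.hchar _ hs)
    have h1 : (MulAut.conj s * α * (MulAut.conj s)⁻¹) ^ p ^ j = 1 := by
      rw [conj_pow, hj', mul_one, mul_inv_cancel]
    obtain ⟨m', h2⟩ := h.pow (p ^ j)
    rw [h1] at h2
    have h3 : σ ^ p ^ j = 1 := (h2.unique Sem.one).2
    have hcl : ∀ s t, θ (s * t * s⁻¹) = θ t := fun s t => Core.isIrr_isClassFunction hirr t s
    have h4 : ∀ t, θ ((MulAut.conj s * α * (MulAut.conj s)⁻¹) t) = θ t := by
      intro t
      rw [hθ, ind_apply c h t]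
      have : c.comp (Units.map (σ : K →* K)) = c := MonoidHom.ext (hcp σ j h3)
      rw [this]
    have h5 := h4 (s * x * s⁻¹)
    rw [hcl] at h5
    rw [← h5]
    have e2 : (MulAut.conj s)⁻¹ (MulAut.conj s x) = x := MulAut.inv_apply_self _ _ _
    change _ = θ (MulAut.conj s (α ((MulAut.conj s)⁻¹ (MulAut.conj s x))))
    rw [e2]
    change _ = θ (s * α x * s⁻¹)
    rw [hcl]

end RootDat

end Cfsg.Agent.H993.OC
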