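import Cfsg.Agent.H993.OC.Root
import Cfsg.Agent.CharactersDeep.MaxInduced
import Cfsg.Agent.Characters.Linear

/-!
# S4891, defining characteristic: the abstract theorem (helper993)

`RootDat.l3` : `θ = Ind_P^S (c ∘ μ)` irreducible and different from its field conjugates gives `L3 p S`.
-/

set_option autoImplicit false

open Cfsg

namespace Cfsg.Agent.H993.OC

open Cfsg.Agent.H846.RatB Cfsg.Agent.Characters Cfsg.Agent.H53.HC Cfsg.Agent.OddOrderCharacters.Clifford

universe u v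

section gen

/-- induction and restriction along a homomorphism onto a supplement -/
theorem indFun_hom {S A : Type*} [Group S] [Group A] [Fintype S] [Fintype A] (ι : S →* A) (H : Subgroup A)
    (P : Subgroup S) (hP : ∀ s, s ∈ P ↔ ι s ∈ H) (hcov : ∀ a, ∃ s, ∃ h ∈ H, a = ι s * h) (θ : H → ℂ)
    (hcl : ∀ h k : H, θ (h * k * h⁻¹) = θ k) (θ' : P → ℂ) (hθ' : ∀ g : P, θ' g = θ ⟨ι g, (hP g).1 g.2⟩) (s : S) :
    indFun H θ (ι s) = indFun P θ' s := by
  classical
  let _ : Fintype (A ⧸ H) := Fintype.ofFinite _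
  let _ : Fintype (S ⧸ P) := Fintype.ofFinite _
  have hcl' : ∀ h k : P, θ' (h * k * h⁻¹) = θ' k := fun h k => by
    rw [hθ', hθ', ← hcl ⟨ι h, (hP h).1 h.2⟩ ⟨ι k, (hP k).1 k.2⟩]
    congr 1
    apply Subtype.ext
    change ι ((h : S) * k * (h : S)⁻¹) = ι h * ι k * (ι h)⁻¹
    rw [map_mul, map_mul, map_inv]
  rw [MonomialVec.indFun_eq_sum_quotient H θ hcl, MonomialVec.indFun_eq_sum_quotient P θ' hcl']
  have hcf : IsClassFunction H θ := fun g h => hcl h g
  have hcf' : IsClassFunction P θ' := fun g h => hcl' h g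
  have hval : ∀ (y a : A), extendByZero H θ ((QuotientGroup.mk y : A ⧸ H).out⁻¹ * a *
      (QuotientGroup.mk y : A ⧸ H).out) = extendByZero H θ (y⁻¹ * a * y) := by
    intro y a
    obtain ⟨h, hh⟩ := QuotientGroup.mk_out_eq_mul H y
    rw [hh]
    have : (y * (h : A))⁻¹ * a * (y * h) = (h : A)⁻¹ * (y⁻¹ * a * y) * h := by group
    rw [this]
    exact ext_conj hcf h.2 _
  let f : S ⧸ P → A ⧸ H := Quotient.map' ι (by
    intro a b h
    rw [QuotientGroup.leftRel_apply] at h ⊢
    rw [← map_inv, ← map_mul]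
    exact (hP _).1 h)
  have hf : ∀ t : S, f (QuotientGroup.mk t) = QuotientGroup.mk (ι t) := fun t => rfl
  have hbij : Function.Bijective f := by
    constructor
    · intro a b h
      obtain ⟨a, rfl⟩ := QuotientGroup.mk_surjective a
      obtain ⟨b, rfl⟩ := QuotientGroup.mk_surjective b
      rw [hf, hf, QuotientGroup.eq, ← map_inv, ← map_mul] at h
      rw [QuotientGroup.eq]
      exact (hP _).2 h
    · intro a
      obtain ⟨a, rfl⟩ := QuotientGroup.mk_surjective a
      obtain ⟨t, h, hh, rfl⟩ := hcov a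
      refine ⟨QuotientGroup.mk t, ?_⟩
      rw [hf, QuotientGroup.eq, inv_mul_cancel_left]
      exact hh
  rw [← (Equiv.ofBijective f hbij).sum_comp]
  refine Finset.sum_congr rfl fun ω _ => ?_
  obtain ⟨h, hh⟩ : ∃ t : S, ω = QuotientGroup.mk t := by
    obtain ⟨t, rfl⟩ := QuotientGroup.mk_surjective ω
    exact ⟨t, rfl⟩
  have e1 : (Equiv.ofBijective f hbij ω) = QuotientGroup.mk (ι ω.out) := by
    change f ω = _
    conv_lhs => rw [← QuotientGroup.out_eq' ω]
    rfl
  rw [e1, hval, ← map_inv, ← map_mul, ← map_mul]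
  by_cases hz : ω.out⁻¹ * s * ω.out ∈ P
  · rw [ext_apply_mem _ _ _ hz, ext_apply_mem _ _ _ ((hP _).1 hz), hθ']
  · rw [ext_apply_not_mem _ _ _ hz, ext_apply_not_mem _ _ _ (fun h => hz ((hP _).2 h))]

theorem indFun_one' {G : Type*} [Group G] [Fintype G] (H : Subgroup G) (lam : H →* ℂˣ) :
    indFun H (fun h => (lam h : ℂ)) 1 = (H.index : ℂ) := by
  classical
  unfold indFun
  have h1 : ∀ x : G, extendByZero H (fun h => (lam h : ℂ)) (x⁻¹ * 1 * x) = 1 := by
    intro x
    rw [mul_one, inv_mul_cancel, ext_apply_mem _ _ _ (one_mem H)]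
    change ((lam 1 : ℂˣ) : ℂ) = 1
    rw [map_one, Units.val_one]
  rw [Finset.sum_congr rfl fun x _ => h1 x, Finset.sum_const, Finset.card_univ, nsmul_eq_mul, mul_one,
    ← Nat.card_eq_fintype_card, ← Subgroup.card_mul_index H]
  push_cast
  rw [inv_mul_cancel_left₀]
  exact_mod_cast (Nat.card_pos (α := H)).ne'

/-- the values of a monomial character -/
theorem indFun_mem {G : Type*} [Group G] [Fintype G] (H : Subgroup G) (lam : H →* ℂˣ) {n : ℕ} (hn : n ≠ 0)
    (h : ∀ x, lam x ^ n = 1) (g : G) : indFun H (fun h => (lam h : ℂ)) g ∈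
      IntermediateField.adjoin ℚ ({Complex.exp (2 * Real.pi * Complex.I / n)} : Set ℂ) := by
  classical
  set E := IntermediateField.adjoin ℚ ({Complex.exp (2 * Real.pi * Complex.I / n)} : Set ℂ) with hE
  have hζ : Complex.exp (2 * Real.pi * Complex.I / n) ∈ E := IntermediateField.mem_adjoin_simple_self ℚ _
  have hprim := Complex.isPrimitiveRoot_exp n hn
  unfold indFun
  refine E.mul_mem (E.inv_mem (natCast_mem E _)) (E.sum_mem fun x _ => ?_)
  by_cases hz : x⁻¹ * g * x ∈ H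
  · rw [ext_apply_mem _ _ _ hz]
    have h1 : ((lam ⟨_, hz⟩ : ℂˣ) : ℂ) ^ n = 1 := by
      rw [← Units.val_pow_eq_pow_val, h, Units.val_one]
    have : NeZero n := ⟨hn⟩
    obtain ⟨i, -, hi⟩ := hprim.eq_pow_of_pow_eq_one h1
    rw [← hi]
    exact pow_mem hζ i
  · rw [ext_apply_not_mem _ _ _ hz]
    exact E.zero_mem

end gen

variable {p : ℕ} [Fact p.Prime] {S : Type u} [Group S] {K : Type v} [Field K]

/-- `c ∘ σ = c` -/
def Fx (c : Kˣ →* ℂˣ) (σ : K ≃+* K) : Prop := ∀ a : Kˣ, c (Units.map (σ : K →* K) a) = c a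

namespace RootDat

variable (D : RootDat p S K)

/-- the linear character `c ∘ μ` of `P` -/
def lam (c : Kˣ →* ℂˣ) : D.P →* ℂˣ := c.comp D.μ

/-- the normaliser of the root group in `Aut S` -/
def NX : Subgroup (MulAut S) where
  carrier := {α | D.X.map α.toMonoidHom = D.X}
  one_mem' := by
    change D.X.map (1 : MulAut S).toMonoidHom = D.X
    exact D.X.map_id
  mul_mem' := by
    intro α β hα hβ
    change D.X.map α.toMonoidHom = D.X at hα
    change D.X.map β.toMonoidHom = D.X at hβ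
    change D.X.map (α * β).toMonoidHom = D.X
    have h : (α * β).toMonoidHom = α.toMonoidHom.comp β.toMonoidHom := rfl
    rw [h, ← Subgroup.map_map, hβ, hα]
  inv_mem' := by
    intro α hα
    change D.X.map α.toMonoidHom = D.X at hα
    change D.X.map (α⁻¹ : MulAut S).toMonoidHom = D.X
    conv_lhs => rw [← hα]
    rw [Subgroup.map_map]
    have : (α⁻¹ : MulAut S).toMonoidHom.comp α.toMonoidHom = MonoidHom.id S := by
      ext s
      exact MulAut.inv_apply_self S α s
    rw [this, Subgroup.map_id]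

variable {D}

theorem mem_NX {α : MulAut S} : α ∈ D.NX ↔ D.X.map α.toMonoidHom = D.X := Iff.rfl

theorem conj_mem_NX {s : S} : MulAut.conj s ∈ D.NX ↔ s ∈ D.P := (D.mem_P s).symm

theorem apply_mem_P_iff {α : MulAut S} (hα : α ∈ D.NX) {g : S} : α g ∈ D.P ↔ g ∈ D.P := by
  constructor
  · intro h
    have := apply_mem_P (mem_NX.1 (inv_mem hα)) h
    rwa [MulAut.inv_apply_self] at this
  · exact apply_mem_P hα

theorem Sem.pow {α : MulAut S} {m : Kˣ} {σ : K ≃+* K} (h : D.Sem α m σ) (n : ℕ) : ∃ m', D.Sem (α ^ n) m' (σ ^ n) := by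
  induction n with
  | zero => exact ⟨1, by rw [pow_zero, pow_zero]; exact Sem.one⟩
  | succ n ih =>
    obtain ⟨m', hm'⟩ := ih
    exact ⟨_, by rw [pow_succ, pow_succ]; exact hm'.mul h⟩

/-- the character `θ ∘ α` -/
theorem ind_apply [Fintype S] (c : Kˣ →* ℂˣ) {α : MulAut S} {m : Kˣ} {σ : K ≃+* K} (h : D.Sem α m σ) (s : S) :
    indFun D.P (fun g => (D.lam c g : ℂ)) (α s) =
      indFun D.P (fun g => (D.lam (c.comp (Units.map (σ : K →* K))) g : ℂ)) s := by
  classical
  have hα : α ∈ D.NX := h.map_X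
  unfold indFun
  congr 1
  rw [← α.toEquiv.sum_comp]
  refine Finset.sum_congr rfl fun y _ => ?_
  change extendByZero D.P _ ((α y)⁻¹ * α s * α y) = _
  rw [← map_inv, ← map_mul, ← map_mul]
  by_cases hz : y⁻¹ * s * y ∈ D.P
  · rw [ext_apply_mem _ _ _ hz, ext_apply_mem _ _ _ ((apply_mem_P_iff hα).2 hz)]
    change ((c (D.μ _) : ℂˣ) : ℂ) = _
    rw [h.μ ⟨_, hz⟩ ((apply_mem_P_iff hα).2 hz)]
    rfl
  · rw [ext_apply_not_mem _ _ _ hz, ext_apply_not_mem _ _ _ (fun h => hz ((apply_mem_P_iff hα).1 h))]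

/-- Frattini -/
theorem exists_conj_fix [Finite S] (α : MulAut S) : ∃ s : S,
    (D.U : Subgroup S).map (MulAut.conj s * α).toMonoidHom = D.U := by
  obtain ⟨s, hs⟩ := MulAction.exists_smul_eq S (α • D.U) D.U
  refine ⟨s, ?_⟩
  have h1 := congrArg (fun P : Sylow p S => (P : Subgroup S)) hs
  have h2 : (MulAut.conj s * α).toMonoidHom = (MulAut.conj s).toMonoidHom.comp α.toMonoidHom := rfl
  rw [h2, ← Subgroup.map_map]
  exact h1

/-- the automorphisms of `p`-power order, up to conjugacy, normalise `U` -/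
theorem exists_conj_fix' [Finite S] {α : MulAut S} {j : ℕ} (hj : α ^ p ^ j = 1) : ∃ s : S,
    (D.U : Subgroup S).map (MulAut.conj s * α * (MulAut.conj s)⁻¹).toMonoidHom = D.U := by
  classical
  have hpg : IsPGroup p (Subgroup.zpowers α) := by
    intro ⟨β, hβ⟩
    obtain ⟨i, rfl⟩ := Subgroup.mem_zpowers_iff.1 hβ
    refine ⟨j, Subtype.ext ?_⟩
    change (α ^ i) ^ p ^ j = 1
    rw [← zpow_natCast, ← zpow_mul, mul_comm, zpow_mul, zpow_natCast, hj, one_zpow]
  have h1 : ¬ p ∣ Nat.card (Sylow p S) := by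
    have := card_sylow_modEq_one p S
    intro h
    have h2 : 1 % p = 0 := by
      have h3 := Nat.mod_eq_zero_of_dvd h
      rw [this] at h3
      exact h3
    rw [Nat.mod_eq_of_lt (Fact.out : p.Prime).one_lt] at h2
    exact one_ne_zero h2
  obtain ⟨Q, hQ⟩ := hpg.nonempty_fixed_point_of_prime_not_dvd_card (Sylow p S) h1
  have hQ' : α • Q = Q := hQ ⟨α, Subgroup.mem_zpowers α⟩
  obtain ⟨s, hs⟩ := MulAction.exists_smul_eq S Q D.U
  refine ⟨s, ?_⟩
  have h2 : (MulAut.conj s * α * (MulAut.conj s)⁻¹).toMonoidHom =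
      ((MulAut.conj s).toMonoidHom.comp α.toMonoidHom).comp (MulAut.conj s)⁻¹.toMonoidHom := rfl
  have h3 : (D.U : Subgroup S).map (MulAut.conj s)⁻¹.toMonoidHom = Q := by
    have e : (D.U : Subgroup S) = (Q : Subgroup S).map (MulAut.conj s).toMonoidHom :=
      (congrArg (fun P : Sylow p S => (P : Subgroup S)) hs).symm
    rw [e, Subgroup.map_map]
    have : (MulAut.conj s)⁻¹.toMonoidHom.comp (MulAut.conj s).toMonoidHom = MonoidHom.id S := by
      ext t
      exact MulAut.inv_apply_self S (MulAut.conj s) t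
    rw [this, Subgroup.map_id]
  have h4 : (Q : Subgroup S).map α.toMonoidHom = Q := congrArg (fun P : Sylow p S => (P : Subgroup S)) hQ'
  rw [h2, ← Subgroup.map_map, ← Subgroup.map_map, h3, h4]
  exact congrArg (fun P : Sylow p S => (P : Subgroup S)) hs

end RootDat

end Cfsg.Agent.H993.OC
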