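import Cfsg.Agent.H993.OC.Abs

/-!
# S4891, defining characteristic: the abstract theorem, main part (helper993)
-/

set_option autoImplicit false

open Cfsg

namespace Cfsg.Agent.H993.OC

open Cfsg.Agent.H846.RatB Cfsg.Agent.Characters Cfsg.Agent.H53.HC Cfsg.Agent.OddOrderCharacters.Clifford

universe u v

variable {p : ℕ} [Fact p.Prime] {S : Type u} [Group S] {K : Type v} [Field K]

namespace RootDat

variable (D : RootDat p S K)

/-- the stabiliser of a class function -/
def Stab (θ : S → ℂ) : Subgroup (MulAut S) where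
  carrier := {α | ∀ s, θ (α s) = θ s}
  one_mem' := fun s => rfl
  mul_mem' := by
    intro α β hα hβ s
    rw [MulAut.mul_apply, hα, hβ]
  inv_mem' := by
    intro α hα s
    rw [← hα ((α⁻¹ : MulAut S) s), MulAut.apply_inv_self]

theorem mem_Stab {θ : S → ℂ} {α : MulAut S} : α ∈ Stab θ ↔ ∀ s, θ (α s) = θ s := Iff.rfl

variable {D}

/-- **the abstract theorem** -/
theorem l3 [Finite S] [Fintype S] [Finite K] [CharP K p] (hZ : Subgroup.center S = ⊥) (c : Kˣ →* ℂˣ)
    (hcp : ∀ (σ : K ≃+* K) (j : ℕ), σ ^ p ^ j = 1 → Fx c σ)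
    (hirr : IsIrrCharacter S (indFun D.P (fun g => (D.lam c g : ℂ))))
    (hne : ∀ σ : K ≃+* K, ¬ Fx c σ → indFun D.P (fun g => (D.lam (c.comp (Units.map (σ : K →* K))) g : ℂ)) ≠
      indFun D.P (fun g => (D.lam c g : ℂ))) (hP : D.P ≠ ⊤) : L3 p S := by
  classical
  have hp : p.Prime := Fact.out
  set θ : S → ℂ := indFun D.P (fun g => (D.lam c g : ℂ)) with hθ
  -- the conjugation map
  let ι₀ : S →* MulAut S := MulAut.conj
  have hι₀ : ∀ s t, ι₀ s t = s * t * s⁻¹ := fun s t => rfl
  -- `U ≤ N(U) ≤ P`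
  have hNU : ∀ {α : MulAut S}, (D.U : Subgroup S).map α.toMonoidHom = D.U → α ∈ D.NX := fun h => D.hchar _ h
  have hUP : (D.U : Subgroup S) ≤ D.P := by
    intro u hu
    rw [← conj_mem_NX]
    refine hNU ?_
    ext t
    rw [Subgroup.mem_map]
    constructor
    · rintro ⟨r, hr, rfl⟩
      exact mul_mem (mul_mem hu hr) (inv_mem hu)
    · intro ht
      exact ⟨u⁻¹ * t * u, mul_mem (mul_mem (inv_mem hu) ht) hu, by
        change u * (u⁻¹ * t * u) * u⁻¹ = t
        group⟩
  -- the stabiliser
  have hsem : ∀ {α : MulAut S} {m : Kˣ} {σ : K ≃+* K}, D.Sem α m σ → (α ∈ Stab θ ↔ Fx c σ) := by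
    intro α m σ h
    constructor
    · intro hα
      by_contra hF
      refine hne σ hF (funext fun s => ?_)
      rw [← ind_apply c h s]
      exact hα s
    · intro hF s
      rw [hθ, ind_apply c h s]
      have : c.comp (Units.map (σ : K →* K)) = c := MonoidHom.ext hF
      rw [this]
  have hconj : ∀ s, MulAut.conj s ∈ Stab θ := fun s t => Core.isIrr_isClassFunction hirr t s
  -- every automorphism of `p`-power order stabilises `θ`
  have hpow : ∀ (α : MulAut S) (j : ℕ), α ^ p ^ j = 1 → α ∈ Stab θ := by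
    intro α j hj
    obtain ⟨s, hs⟩ := exists_conj_fix' (D := D) hj
    obtain ⟨m, σ, h⟩ := exists_sem (hNU hs)
    have h1 : (MulAut.conj s * α * (MulAut.conj s)⁻¹) ^ p ^ j = 1 := by
      rw [conj_pow, hj, mul_one, mul_inv_cancel]
    obtain ⟨m', h2⟩ := h.pow (p ^ j)
    rw [h1] at h2
    have h3 : σ ^ p ^ j = 1 := (h2.unique Sem.one).2
    have h4 := (hsem h).2 (hcp σ j h3)
    have h5 : α = (MulAut.conj s)⁻¹ * (MulAut.conj s * α * (MulAut.conj s)⁻¹) * MulAut.conj s := by group
    rw [h5]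
    exact mul_mem (mul_mem (inv_mem (hconj s)) h4) (hconj s)
  let A : Subgroup (MulAut S) := Stab θ
  let _ : Fintype A := Fintype.ofFinite A
  -- the monomial extension
  let H : Subgroup A := D.NX.subgroupOf A
  have hHsem : ∀ h : H, ∃ (m : Kˣ) (σ : K ≃+* K), D.Sem ((h : A) : MulAut S) m σ := fun h =>
    exists_sem (mem_NX.1 (Subgroup.mem_subgroupOf.1 h.2))
  choose mm sg hms using hHsem
  have hFx : ∀ h : H, Fx c (sg h) := fun h => (hsem (hms h)).1 (h : A).2
  have hlam1 : c (mm 1) = 1 := by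
    have h1 : D.Sem (((1 : H) : A) : MulAut S) 1 1 := Sem.one
    rw [(h1.unique (hms 1)).1.symm, map_one]
  let lamH : H →* ℂˣ :=
    { toFun := fun h => c (mm h)
      map_one' := hlam1
      map_mul' := fun h k => by
        have h1 := (hms h).mul (hms k)
        have h2 : D.Sem (((h * k : H) : A) : MulAut S) (mm h * Units.map (sg h : K →* K) (mm k)) (sg h * sg k) := h1
        rw [(hms (h * k)).unique h2 |>.1, map_mul, hFx h] }
  have hlamH : ∀ (h : H) (m : Kˣ) (σ : K ≃+* K), D.Sem ((h : A) : MulAut S) m σ → lamH h = c m := by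
    intro h m σ h1
    change c (mm h) = c m
    rw [(hms h).unique h1 |>.1]
  let ι : S →* A := ι₀.codRestrict A hconj
  have hιP : ∀ s, s ∈ D.P ↔ ι s ∈ H := by
    intro s
    rw [Subgroup.mem_subgroupOf]
    exact conj_mem_NX.symm
  have hcov : ∀ a : A, ∃ s, ∃ h ∈ H, a = ι s * h := by
    intro a
    obtain ⟨s, hs⟩ := exists_conj_fix (D := D) (a : MulAut S)
    refine ⟨s⁻¹, ι s * a, ?_, ?_⟩
    · rw [Subgroup.mem_subgroupOf]
      exact hNU hs
    · rw [map_inv, inv_mul_cancel_left]
  let ψ : A → ℂ := indFun H (fun h => (lamH h : ℂ))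
  have hcl : ∀ h k : H, (lamH (h * k * h⁻¹) : ℂ) = lamH k := fun h k => by
    rw [map_mul, map_mul, map_inv, mul_comm (lamH h), mul_inv_cancel_right]
  have hψι : ∀ s, ψ (ι s) = θ s := fun s => by
    refine indFun_hom ι H D.P hιP hcov _ hcl (fun g => (D.lam c g : ℂ)) (fun g => ?_) s
    change ((c (D.μ g) : ℂˣ) : ℂ) = _
    rw [hlamH ⟨ι g, (hιP g).1 g.2⟩ (D.μ g) 1 (Sem.conj g)]
  have hψc : IsCharacter A ψ := Cfsg.Agent.S0148.result H _ (Core.isIrr_isCharacter (Linear.isIrrCharacter_hom lamH))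
  have hψ : IsIrrCharacter A ψ := by
    refine CharactersDeep.MaxInduced.isIrr_of_comp ι hψc ?_
    have : ψ ∘ ι = θ := funext hψι
    rw [this]
    exact hirr
  -- the degree
  have hidx : ¬ p ∣ D.P.index := by
    intro h
    exact D.U.not_dvd_index (h.trans (Subgroup.index_dvd_of_le hUP))
  have hθ1 : θ 1 = (D.P.index : ℂ) := indFun_one' D.P (D.lam c)
  refine ⟨θ, hirr, ?_, ⟨D.P.index, hθ1, hidx⟩, A, fun α => Iff.rfl, ?_, ψ, hψ, ?_, fun s hs => hψι s, ?_⟩
  · intro h
    rw [h, Pi.one_apply] at hθ1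
    have h1 : D.P.index = 1 := by exact_mod_cast hθ1.symm
    exact hP (Subgroup.index_eq_one.1 h1)
  · -- the index of `A`
    obtain ⟨R⟩ : Nonempty (Sylow p (MulAut S)) := inferInstance
    have hRA : (R : Subgroup (MulAut S)) ≤ A := by
      intro α hα
      obtain ⟨j, hj⟩ := R.2 ⟨α, hα⟩
      exact hpow α j (by simpa using congrArg Subtype.val hj)
    intro h
    exact R.not_dvd_index (h.trans (Subgroup.index_dvd_of_le hRA))
  · -- `p`-rational
    have hn : ∀ x, lamH x ^ (Nat.card Kˣ) = 1 := fun x => by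
      change c (mm x) ^ _ = 1
      rw [← map_pow, pow_card_eq_one', map_one]
    refine ⟨Nat.card Kˣ, ?_, fun g => indFun_mem H lamH (Nat.card_pos (α := Kˣ)).ne' hn g⟩
    let _ := Fintype.ofFinite K
    obtain ⟨n, hn0, hn⟩ := FiniteField.card K p
    rw [Nat.card_units, Nat.card_eq_fintype_card, hn]
    intro h
    have h1 : p ∣ p ^ (n : ℕ) := dvd_pow_self p n.2.ne'
    have h2 : 1 ≤ p ^ (n : ℕ) := Nat.one_le_pow _ _ hp.pos
    have h3 : p ∣ 1 := by
      have h4 := (Nat.dvd_sub h1 h)
      rwa [Nat.sub_sub_self h2] at h4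
    exact hp.one_lt.ne' (Nat.dvd_one.1 h3)
  · -- the congruence
    have main : ∀ (R : Subgroup A), IsPGroup p R → (∀ u ∈ (D.U : Subgroup S), ι u ∈ R) →
        (∀ s, ι s ∈ R → s ∈ (D.U : Subgroup S)) → ∀ x : A, (∀ r ∈ R, r * x = x * r) → Cong p (ψ x) 1 := by
      intro R hR hU1 hU2 x hx
      -- normalising `R ∩ S` implies normalising `U`
      have hnorm : ∀ y : A, (∀ u ∈ (D.U : Subgroup S), (y : MulAut S) u ∈ (D.U : Subgroup S)) → y ∈ H := by
        intro y hy
        rw [Subgroup.mem_subgroupOf]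
        refine hNU ?_
        refine Subgroup.eq_of_le_of_card_ge ?_ ?_
        · rintro _ ⟨u, hu, rfl⟩
          exact hy u hu
        · exact (Nat.card_congr ((D.U : Subgroup S).equivMapOfInjective _ (y : MulAut S).injective).toEquiv).le
      have hιconj : ∀ (y : A) (s : S), y * ι s * y⁻¹ = ι ((y : MulAut S) s) := by
        intro y s
        apply Subtype.ext
        change (y : MulAut S) * MulAut.conj s * (y : MulAut S)⁻¹ = MulAut.conj ((y : MulAut S) s)
        ext t
        change (y : MulAut S) (s * ((y : MulAut S)⁻¹ : MulAut S) t * s⁻¹) = (y : MulAut S) s * t * ((y : MulAut S) s)⁻¹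
        rw [map_mul, map_mul, map_inv, MulAut.apply_inv_self]
      have hιinj : Function.Injective ι := by
        rw [injective_iff_map_eq_one]
        intro s hs
        have h1 : MulAut.conj s = 1 := congrArg Subtype.val hs
        have h2 : s ∈ Subgroup.center S := by
          rw [Subgroup.mem_center_iff]
          intro t
          have h3 : s * t * s⁻¹ = t := congrArg (fun α : MulAut S => α t) h1
          calc t * s = (s * t * s⁻¹) * s := by rw [h3]
            _ = s * t := by group
        rw [hZ, Subgroup.mem_bot] at h2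
        exact h2
      have hRH : R ≤ H := fun r hr => hnorm r fun u hu => hU2 _ (by
        rw [← hιconj]
        exact mul_mem (mul_mem hr (hU1 u hu)) (inv_mem hr))
      have hxfix : ∀ u ∈ (D.U : Subgroup S), (x : MulAut S) u = u := by
        intro u hu
        apply hιinj
        rw [← hιconj, ← hx _ (hU1 u hu), mul_inv_cancel_right]
      have hxH : x ∈ H := hnorm x fun u hu => by rw [hxfix u hu]; exact hu
      have hlx : lamH ⟨x, hxH⟩ = 1 := by
        have h1 : D.Sem ((x : A) : MulAut S) 1 1 := fun a => by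
          rw [hxfix _ (D.X_le ((D.mem_X _).2 ⟨a, rfl⟩)), Units.val_one, one_mul]
          rfl
        rw [hlamH ⟨x, hxH⟩ 1 1 h1, map_one]
      have hfix : ∀ y : A, (∀ r ∈ R, y⁻¹ * r * y ∈ H) → y ∈ H := by
        intro y hy
        -- `y⁻¹ U ≤ P`
        have h1 : ∀ u ∈ (D.U : Subgroup S), ((y⁻¹ : A) : MulAut S) u ∈ D.P := by
          intro u hu
          have h2 := hy _ (hU1 u hu)
          have h3 : y⁻¹ * ι u * y = ι (((y⁻¹ : A) : MulAut S) u) := by
            rw [← hιconj, inv_inv]
          rw [h3] at h2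
          exact (hιP _).2 h2
        -- two Sylow subgroups of `P`
        let Q : Sylow p S := ((y⁻¹ : A) : MulAut S) • D.U
        have hQ : (Q : Subgroup S) ≤ D.P := by
          rintro _ ⟨u, hu, rfl⟩
          exact h1 u hu
        let U₁ : Sylow p D.P := D.U.subtype hUP
        let Q₁ : Sylow p D.P := Q.subtype hQ
        obtain ⟨n, hn⟩ := MulAction.exists_smul_eq D.P Q₁ U₁
        -- `ι n * y⁻¹` normalises `U`
        have h4 : ι (n : S) * y⁻¹ ∈ H := by
          refine hnorm _ fun u hu => ?_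
          have h5 : ((y⁻¹ : A) : MulAut S) u ∈ (Q : Subgroup S) := ⟨u, hu, rfl⟩
          have h6 : (⟨((y⁻¹ : A) : MulAut S) u, hQ h5⟩ : D.P) ∈ (Q₁ : Subgroup D.P) := h5
          have h7 : n * ⟨((y⁻¹ : A) : MulAut S) u, hQ h5⟩ * n⁻¹ ∈ (U₁ : Subgroup D.P) := by
            rw [← hn]
            exact ⟨_, h6, rfl⟩
          exact h7
        have h8 : ι (n : S) ∈ H := (hιP _).1 n.2
        have h9 : y⁻¹ ∈ H := by
          have := mul_mem (inv_mem h8) h4
          rwa [inv_mul_cancel_left] at this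
        exact inv_mem_iff.1 h9
      have := cong_indFun H lamH hR hRH hfix hx hxH
      rw [hlx, Units.val_one] at this
      exact this
    intro R x _ hx
    -- conjugate `R` so that it contains `U`
    have hιinj : Function.Injective ι := by
      rw [injective_iff_map_eq_one]
      intro s hs
      have h1 : MulAut.conj s = 1 := congrArg Subtype.val hs
      have h2 : s ∈ Subgroup.center S := by
        rw [Subgroup.mem_center_iff]
        intro t
        have h3 : s * t * s⁻¹ = t := congrArg (fun α : MulAut S => α t) h1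
        calc t * s = (s * t * s⁻¹) * s := by rw [h3]
          _ = s * t := by group
      rw [hZ, Subgroup.mem_bot] at h2
      exact h2
    have hUp : IsPGroup p ((D.U : Subgroup S).map ι) := D.U.2.map ι
    obtain ⟨T, hT⟩ := hUp.exists_le_sylow
    obtain ⟨a, ha⟩ := MulAction.exists_smul_eq A R T
    have hR' : ∀ r, r ∈ (R : Subgroup A) → a * r * a⁻¹ ∈ (T : Subgroup A) := by
      intro r hr
      rw [← ha]
      exact ⟨r, hr, rfl⟩
    have hT' : ∀ t, t ∈ (T : Subgroup A) → a⁻¹ * t * a ∈ (R : Subgroup A) := by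
      intro t ht
      rw [← ha] at ht
      obtain ⟨r, hr, rfl⟩ := ht
      have : a⁻¹ * (a * r * a⁻¹) * a = r := by group
      change a⁻¹ * (a * r * a⁻¹) * a ∈ _
      rw [this]
      exact hr
    have hU2 : ∀ s, ι s ∈ (T : Subgroup A) → s ∈ (D.U : Subgroup S) := by
      have hTp : IsPGroup p ((T : Subgroup A).comap ι) := T.2.comap_of_injective ι hιinj
      have hle : (D.U : Subgroup S) ≤ (T : Subgroup A).comap ι := fun u hu => hT ⟨u, hu, rfl⟩
      have heq := D.U.3 hTp hle
      intro s hs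
      have h1 : s ∈ (T : Subgroup A).comap ι := hs
      rw [heq] at h1
      exact h1
    have hcong : ∀ x : A, (∀ r ∈ R, r * x = x * r) → Cong p (ψ x) 1 := by
      intro x hx
      have h1 := main T T.2 (fun u hu => hT ⟨u, hu, rfl⟩) hU2 (a * x * a⁻¹) (by
        intro t ht
        have h2 := hx _ (hT' t ht)
        calc t * (a * x * a⁻¹) = a * ((a⁻¹ * t * a) * x) * a⁻¹ := by group
          _ = a * (x * (a⁻¹ * t * a)) * a⁻¹ := by rw [h2]
          _ = a * x * a⁻¹ * t := by group)
      have h2 : ψ (a * x * a⁻¹) = ψ x := Core.isIrr_isClassFunction hψ x a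
      rwa [h2] at h1
    exact (hcong x hx).trans (hcong 1 (fun r _ => by rw [mul_one, one_mul])).symm

end RootDat

end Cfsg.Agent.H993.OC
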