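import Cfsg.Agent.H846.RatB.Defs
import Cfsg.Agent.Characters.MonomialVec
import Cfsg.Agent.Blocks.OrbitSum
import Cfsg.Agent.H53.HC.Rgd

/-!
# S4891, layer DEFINING CHARACTERISTIC: definitions (helper993)

* `Cong p a b` : `a ≡ b` modulo `p` in the algebraic integers;
* `L3 p S` : `S` has an irreducible character `θ ≠ 1` of degree prime to `p`, whose stabiliser `A` in `Aut S` has index
  prime to `p`, with a `p`-rational extension `ψ` to `A` and `ψ x ≡ ψ 1` for the `p`-regular elements `x` of `A` which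
  centralize a Sylow `p`-subgroup of `A`.
* `cong_indFun` : this congruence for monomial characters with one fixed point.
-/

set_option autoImplicit false

open Cfsg

namespace Cfsg.Agent.H993.OC

open Cfsg.Agent.H846.RatB Cfsg.Agent.Characters Cfsg.Agent.H53.HC Cfsg.Agent.OddOrderCharacters.Clifford

universe u

/-- congruence modulo `p` in the algebraic integers -/
def Cong (p : ℕ) (a b : ℂ) : Prop := ∃ z : ℂ, IsIntegral ℤ z ∧ a = b + p * z

theorem Cong.symm {p : ℕ} {a b : ℂ} (h : Cong p a b) : Cong p b a := by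
  obtain ⟨z, hz, h⟩ := h
  exact ⟨-z, hz.neg, by rw [h]; ring⟩

theorem Cong.trans {p : ℕ} {a b c : ℂ} (h : Cong p a b) (h' : Cong p b c) : Cong p a c := by
  obtain ⟨z, hz, h⟩ := h
  obtain ⟨z', hz', h'⟩ := h'
  exact ⟨z + z', hz.add hz', by rw [h, h']; ring⟩

theorem Cong.refl (p : ℕ) (a : ℂ) : Cong p a a := ⟨0, isIntegral_zero, by ring⟩

/-- **the hypotheses of (L3)** -/
def L3 (p : ℕ) (S : Type u) [Group S] [Finite S] : Prop :=
  ∃ θ : S → ℂ, IsIrrCharacter S θ ∧ θ ≠ 1 ∧ (∃ d : ℕ, θ 1 = d ∧ ¬ p ∣ d) ∧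
    ∃ A : Subgroup (MulAut S), (∀ α : MulAut S, α ∈ A ↔ ∀ s, θ (α s) = θ s) ∧ ¬ p ∣ A.index ∧
      ∃ ψ : A → ℂ, IsIrrCharacter A ψ ∧ PRatC p ψ ∧
        (∀ (s : S) (hs : MulAut.conj s ∈ A), ψ ⟨MulAut.conj s, hs⟩ = θ s) ∧
        ∀ (R : Sylow p A) (x : A), IsPRegular p x → (∀ r ∈ R, r * x = x * r) → Cong p (ψ x) (ψ 1)

section cong

variable {G : Type u} [Group G]

/-- **congruence for a monomial character**: `R` a `p`-subgroup of `H` with one fixed point on `G ⧸ H` -/
theorem cong_indFun [Fintype G] {p : ℕ} [Fact p.Prime] (H : Subgroup G) (lam : H →* ℂˣ) {R : Subgroup G}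
    (hR : IsPGroup p R) (hRH : R ≤ H) (hfix : ∀ y : G, (∀ r ∈ R, y⁻¹ * r * y ∈ H) → y ∈ H) {x : G}
    (hx : ∀ r ∈ R, r * x = x * r) (hxH : x ∈ H) :
    Cong p (indFun H (fun h => (lam h : ℂ)) x) (lam ⟨x, hxH⟩ : ℂ) := by
  classical
  let _ : Fintype (G ⧸ H) := Fintype.ofFinite _
  have hcl : ∀ h k : H, (lam (h * k * h⁻¹) : ℂ) = lam k := fun h k => by
    rw [map_mul, map_mul, map_inv, mul_comm (lam h), mul_inv_cancel_right]
  have hcf : IsClassFunction H (fun h => (lam h : ℂ)) := fun g h => hcl h g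
  rw [MonomialVec.indFun_eq_sum_quotient H _ hcl]
  -- the values are integral
  have hint : ∀ g, IsIntegral ℤ (extendByZero H (fun h => (lam h : ℂ)) g) := by
    intro g
    by_cases hg : g ∈ H
    · rw [ext_apply_mem _ _ _ hg]
      refine IsIntegral.of_pow (n := Nat.card H) Nat.card_pos ?_
      rw [← Units.val_pow_eq_pow_val, ← map_pow, pow_card_eq_one', map_one, Units.val_one]
      exact isIntegral_one
    · rw [ext_apply_not_mem _ _ _ hg]
      exact isIntegral_zero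
  -- the value of a coset
  have hval : ∀ y : G, extendByZero H (fun h => (lam h : ℂ)) ((QuotientGroup.mk y : G ⧸ H).out⁻¹ * x *
      (QuotientGroup.mk y : G ⧸ H).out) = extendByZero H (fun h => (lam h : ℂ)) (y⁻¹ * x * y) := by
    intro y
    obtain ⟨h, hh⟩ := QuotientGroup.mk_out_eq_mul H y
    rw [hh]
    have : (y * (h : G))⁻¹ * x * (y * h) = (h : G)⁻¹ * (y⁻¹ * x * y) * h := by group
    rw [this]
    exact ext_conj hcf h.2 _
  let f : G ⧸ H → AlgInt := fun ω => ⟨extendByZero H (fun h => (lam h : ℂ)) (ω.out⁻¹ * x * ω.out), hint _⟩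
  have hfv : ∀ ω : G ⧸ H, (f ω : ℂ) = extendByZero H (fun h => (lam h : ℂ)) (ω.out⁻¹ * x * ω.out) := fun _ => rfl
  have hf : ∀ (r : R) (ω : G ⧸ H), f (r • ω) = f ω := by
    intro r ω
    obtain ⟨y, rfl⟩ := QuotientGroup.mk_surjective ω
    apply Subtype.ext
    have e0 : r • (QuotientGroup.mk y : G ⧸ H) = QuotientGroup.mk ((r : G) * y) := rfl
    rw [hfv, hfv, e0, hval, hval]
    congr 1
    have h1 : ((r : G))⁻¹ * x * r = x := by
      rw [mul_assoc, ← hx r r.2, inv_mul_cancel_left]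
    calc ((r : G) * y)⁻¹ * x * (r * y) = y⁻¹ * ((r : G)⁻¹ * x * r) * y := by group
      _ = _ := by rw [h1]
  obtain ⟨a, ha⟩ := Cfsg.Agent.Blocks.OrbitSum.sum_eq_sum_fixed_add_smul hR f hf
  have hfp : Finset.univ.filter (· ∈ MulAction.fixedPoints R (G ⧸ H)) = {(QuotientGroup.mk 1 : G ⧸ H)} := by
    ext ω
    obtain ⟨y, rfl⟩ := QuotientGroup.mk_surjective ω
    rw [Finset.mem_filter, Finset.mem_singleton, MulAction.mem_fixedPoints]
    constructor
    · rintro ⟨-, h⟩
      have hy : y ∈ H := hfix y fun r hr => by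
        have h1 := h ⟨r, hr⟩
        change (QuotientGroup.mk (r * y) : G ⧸ H) = QuotientGroup.mk y at h1
        rw [eq_comm, QuotientGroup.eq] at h1
        rwa [mul_assoc]
      rw [QuotientGroup.eq, mul_one]
      exact inv_mem hy
    · intro h
      refine ⟨Finset.mem_univ _, fun r => ?_⟩
      have hy : y ∈ H := by
        rw [QuotientGroup.eq, mul_one] at h
        simpa using inv_mem h
      change (QuotientGroup.mk ((r : G) * y) : G ⧸ H) = QuotientGroup.mk y
      rw [eq_comm, QuotientGroup.eq]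
      exact mul_mem (inv_mem hy) (mul_mem (hRH r.2) hy)
  rw [hfp, Finset.sum_singleton] at ha
  refine ⟨a, a.2, ?_⟩
  have h2 := congrArg (Subtype.val : AlgInt → ℂ) ha
  have h3 : ((∑ ω, f ω : AlgInt) : ℂ) = ∑ ω : G ⧸ H, extendByZero H (fun h => (lam h : ℂ)) (ω.out⁻¹ * x * ω.out) := by
    rw [AddSubmonoidClass.coe_finsetSum]
  rw [← h3]
  change ((∑ ω, f ω : AlgInt) : ℂ) = _
  rw [h2]
  have h4 : (f (QuotientGroup.mk 1 : G ⧸ H) : ℂ) = lam ⟨x, hxH⟩ := by
    rw [hfv, hval, inv_one, one_mul, mul_one, ext_apply_mem _ _ _ hxH]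
  rw [← h4]
  change ((f (QuotientGroup.mk 1 : G ⧸ H) + p • a : AlgInt) : ℂ) = _
  push_cast
  rw [nsmul_eq_mul]

end cong

end Cfsg.Agent.H993.OC
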