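import Cfsg.Agent.H798.Oc.Untw
import Cfsg.Agent.H287.OC.Rgd
import Cfsg.Agent.H239.OCHigh
import Cfsg.Agent.H557.ToralTypes
import Cfsg.Agent.H993.OC.Row

/-!
# S4891, own characteristic: the row `F₄(q)`, `q` odd (helper993)

`J = {0, 1, 2}`, `V = V_J` the unipotent radical of `P_J` (15 roots with sum `11 β`, `β` the dominant short root),
`Ψ = Ind_{P_J} (sg V)` : norm two, `⟨Ψ, Ind_{P_3} (sq)⟩ = 1`.
-/

set_option autoImplicit false
set_option linter.unusedSectionVars false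

open Cfsg

namespace Cfsg.Agent.H993.OC.F4

open CoxeterSystem Cfsg.Agent.ChevalleyStructure.CoxeterGeom Cfsg.Agent.Tits.Roots Cfsg.Agent.Tits.Core
  Cfsg.Agent.Tits.RootComb Cfsg.Agent.Tits.Exchange Cfsg.Agent.Nodes.Comb Cfsg.Agent.Nodes.Reps Cfsg.Agent.Nodes.BNOf
  Cfsg.Agent.Nodes.StabComb Cfsg.Agent.Nodes.Bruhat Cfsg.Agent.Nodes.OppDec Cfsg.Agent.Nodes.LeviDec
  Cfsg.Agent.Nodes.Unique
open Cfsg.Agent.H798.Oc.Sign Cfsg.Agent.H798.Oc.Ind Cfsg.Agent.H798.Oc.Pair Cfsg.Agent.H150.Toral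

/-! ### the sign on a product -/

section Prod

variable {Y : Type*} [Group Y] [Finite Y]

theorem sv_prod {A B V : Subgroup Y} (hAV : A ≤ V) (hBV : B ≤ V) (hAB : A ⊓ B = ⊥)
    (hV : ∀ g ∈ V, ∃ a ∈ A, ∃ b ∈ B, g = a * b) (hA : Odd (Nat.card A)) (hB : Odd (Nat.card B)) {t : Y}
    (h1 : t ∈ Subgroup.normalizer (A : Set Y)) (h2 : t ∈ Subgroup.normalizer (B : Set Y))
    (h3 : t ∈ Subgroup.normalizer (V : Set Y)) : sv V t = sv A t * sv B t := by
  classical
  rw [sv_eq h1, sv_eq h2, sv_eq h3, sg_apply, sg_apply, sg_apply]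
  rw [← sgn_prod_odd _ _ hA hB]
  let f : ↥A × ↥B → ↥V := fun x => ⟨x.1 * x.2, mul_mem (hAV x.1.2) (hBV x.2.2)⟩
  have hf : Function.Bijective f := by
    constructor
    · rintro ⟨⟨a, ha⟩, b, hb⟩ ⟨⟨a', ha'⟩, b', hb'⟩ h
      have h4 : a * b = a' * b' := congrArg Subtype.val h
      have h5 : a'⁻¹ * a = b' * b⁻¹ := by
        have : a'⁻¹ * a = a'⁻¹ * (a * b) * b⁻¹ := by group
        rw [this, h4]; group
      have h6 : a'⁻¹ * a ∈ A ⊓ B := Subgroup.mem_inf.2 ⟨A.mul_mem (A.inv_mem ha') ha, by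
        rw [h5]; exact B.mul_mem hb' (B.inv_mem hb)⟩
      rw [hAB, Subgroup.mem_bot] at h6
      rw [h6] at h5
      have h7 : a' = a := inv_mul_eq_one.1 h6
      have h8 : b' = b := mul_inv_eq_one.1 h5.symm
      subst h7 h8
      rfl
    · rintro ⟨g, hg⟩
      obtain ⟨a, ha, b, hb, e⟩ := hV g hg
      exact ⟨(⟨a, ha⟩, ⟨b, hb⟩), Subtype.ext e.symm⟩
  refine (sgn_equiv _ _ (Equiv.ofBijective f hf) ?_).symm
  rintro ⟨a, b⟩
  apply Subtype.ext
  change t * (a : Y) * t⁻¹ * (t * (b : Y) * t⁻¹) = t * ((a : Y) * b) * t⁻¹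
  group

end Prod

variable {I W Y : Type*} [Fintype I] [DecidableEq I] [Group W] [Group Y] {M : CoxeterMatrix I}
  {cs : CoxeterSystem M W} {A : I → I → ℤ} {h : IsCartan M A} {p : ℕ} {T : Subgroup Y} {n : I → Y}
  {X : (I → ℤ) → Subgroup Y}

section Sup

variable (R : RGD cs h p T n X) [Finite W] [Finite Y] [hp : Fact p.Prime]

include R

theorem odd_card (hp2 : p ≠ 2) {V : Subgroup Y} (hV : V ≤ RGD.Sup X (RGD.Pos cs h)) : Odd (Nat.card V) := by
  have h1 : IsPGroup p V := (RGD.isPGroup_Upos R).to_le hV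
  obtain ⟨n, hn⟩ := IsPGroup.iff_card.1 h1
  rw [hn]
  exact (hp.out.odd_of_ne_two hp2).pow

theorem mem_norm_Sup {S : Set (I → ℤ)} (hS : ∀ x ∈ S, IsRoot cs h x) {t : Y} (ht : t ∈ T) :
    t ∈ Subgroup.normalizer (RGD.Sup X S : Set Y) := R.T_le_normalizer hS ht

/-- the sign of a torus element on `Sup X S` -/
theorem sv_Sup_fut (hp2 : p ≠ 2) (w : W) {S : Set (I → ℤ)} (hS : S ⊆ Fut cs h w) (hc : Closed cs h S) {t : Y}
    (ht : t ∈ T) : sv (RGD.Sup X S) t = ∏ᶠ x ∈ S, sv (X x) t := by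
  induction hn : (Fut cs h w).ncard generalizing w S with
  | zero =>
    have h1 := (Set.ncard_eq_zero (finite_fut w)).1 hn
    rw [h1, Set.subset_empty_iff] at hS
    subst hS
    rw [finprod_mem_empty]
    have h2 : RGD.Sup X (∅ : Set (I → ℤ)) = ⊥ := by
      rw [eq_bot_iff]
      exact RGD.Sup_le fun z hz => absurd hz (by simp)
    rw [h2]
    have h3 : t ∈ Subgroup.normalizer ((⊥ : Subgroup Y) : Set Y) := by
      rw [Subgroup.mem_normalizer_iff]
      intro y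
      rw [Subgroup.mem_bot, Subgroup.mem_bot, conj_eq_one_iff]
    rw [sv_eq h3, sg_apply]
    have h4 : MulAut.toPerm (⊥ : Subgroup Y) ((⊥ : Subgroup Y).normalizerMonoidHom ⟨t, h3⟩) = 1 := by
      ext x
      have := x.2
      rw [Subgroup.mem_bot] at this
      have h5 : ∀ y : (⊥ : Subgroup Y), (y : Y) = 1 := fun y => by
        have := y.2
        rwa [Subgroup.mem_bot] at this
      rw [h5, h5]
    rw [h4, map_one]
  | succ k ih =>
    have hne : (Fut cs h w).Nonempty := by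
      rw [Set.nonempty_iff_ne_empty]
      intro h1
      rw [h1, Set.ncard_empty] at hn
      omega
    obtain ⟨y, hy⟩ := hne
    obtain ⟨i, hi⟩ := exists_simple hy
    set x := rep cs h w (sr i) with hxdef
    have hcard : (Fut cs h (w * cs.simple i)).ncard = k := by
      rw [fut_mul hi, Set.ncard_sdiff_singleton_of_mem (mem_fut hi), hn]
      rfl
    have hsub : S \ {x} ⊆ Fut cs h (w * cs.simple i) := by
      rw [fut_mul hi]
      exact Set.sdiff_subset_sdiff_left hS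
    have key := ih (w * cs.simple i) hsub (closed_diff hi hS hc) hcard
    have hpos : S ⊆ RGD.Pos cs h := hS.trans (fut_subset_pos w)
    by_cases hx : x ∈ S
    · have hfin : S.Finite := (finite_pos (cs := cs) (h := h)).subset hpos
      have h1 : sv (RGD.Sup X S) t = sv (X x) t * sv (RGD.Sup X (S \ {x})) t := by
        have hx0 := hpos hx
        refine sv_prod (RGD.le_Sup hx) (RGD.Sup_mono Set.sdiff_subset) ?_ ?_ ?_ ?_ ?_ ?_ ?_
        · rw [eq_bot_iff]
          rintro a ⟨ha, hb⟩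
          have h2 : a ∈ X x ⊓ RGD.Sup X (Fut cs h (w * cs.simple i)) := ⟨ha, RGD.Sup_mono hsub hb⟩
          rwa [hxdef, tail_inf R] at h2
        · intro g hg
          exact (mem_peel R hpos hc hx).1 hg
        · exact odd_card R hp2 (RGD.le_Sup hx0)
        · exact odd_card R hp2 (RGD.Sup_mono (Set.sdiff_subset.trans hpos))
        · have h2 := R.tor x hx0.1 t ht
          rw [Subgroup.mem_normalizer_iff]
          intro z
          conv_rhs => rw [← h2]
          exact conj_mem_cj.symm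
        · exact mem_norm_Sup R (fun z hz => (hpos hz.1).1) ht
        · exact mem_norm_Sup R (fun z hz => (hpos hz).1) ht
      rw [h1, key]
      have h2 : S = insert x (S \ {x}) := by
        rw [Set.insert_sdiff_singleton, Set.insert_eq_of_mem hx]
      conv_rhs => rw [h2]
      rw [finprod_mem_insert _ (by simp) (hfin.subset Set.sdiff_subset)]
    · have h2 : S \ {x} = S := Set.sdiff_singleton_eq_self hx
      rw [h2] at key
      exact key

/-- the sign of a torus element on the unipotent radical -/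
theorem sv_VJ (hp2 : p ≠ 2) (J : Set I) {t : Y} (ht : t ∈ T) :
    sv (VJ cs h X J) t = ∏ᶠ x ∈ NotJ cs h J, sv (X x) t := by
  have h1 : NotJ cs h J ⊆ Fut cs h 1 := by
    rw [fut_one]
    exact fun x hx => ⟨hx.1, hx.2.1⟩
  refine sv_Sup_fut R hp2 1 h1 ?_ ht
  intro x hx y hy z hz
  obtain ⟨k, hk, hxk⟩ := hx.2.2
  exact ⟨hz.1, btwn_nonneg hz hx.2.1 hy.2.1, k, hk, btwn_apply_pos hz hxk (hy.2.1 k)⟩

end Sup

section Main

open Cfsg.Agent.H798.Oc.Main Cfsg.Agent.H287.OC Cfsg.Agent.H932.OC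

variable (R : RGD cs h p T n X) [Finite W] [Finite Y] [hp : Fact p.Prime] (hG : GG cs h T X = ⊤)

include R hG

/-- the normalizer of the unipotent radical is the parabolic subgroup -/
theorem norm_VJ (J : Set I) : Subgroup.normalizer (VJ cs h X J : Set Y) = PJ cs h T X J := by
  have h1 : PJ cs h T X J ≤ Subgroup.normalizer (VJ cs h X J : Set Y) := PJ_le_normalizer_VJ R J
  have h2 := inf_eq_PJ R (P := Subgroup.normalizer (VJ cs h X J : Set Y)) (B_le_PJ.trans h1)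
  rw [hG, inf_top_eq] at h2
  have h3 : {i | n i ∈ Subgroup.normalizer (VJ cs h X J : Set Y)} = J := by
    ext i
    constructor
    · intro hi
      by_contra hiJ
      have h4 : X (-sr i) ≤ RGD.B cs h T X := by
        intro u hu
        have h5 : (n i)⁻¹ * u * n i ∈ X (sr i) := by
          have h6 := R.conj_mem' (rp_simple cs R.nsys i) (isRoot_sr cs h i).neg hu
          rwa [cs.inv_simple, map_neg, rep_simple_sr, neg_neg] at h6
        have h6 : (n i)⁻¹ * u * n i ∈ VJ cs h X J := RGD.le_Sup (sr_mem_NotJ hiJ) h5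
        have h7 := (Subgroup.mem_normalizer_iff.1 hi _).1 h6
        have e : n i * ((n i)⁻¹ * u * n i) * (n i)⁻¹ = u := by group
        rw [e] at h7
        exact VJ_le_B J h7
      have h5 := neg_inf_B R i
      rw [inf_eq_left.2 h4] at h5
      exact X_ne_bot R (isRoot_sr cs h i).neg h5
    · intro hi
      exact h1 (LJ_le_PJ (n_mem_LJ R hi))
  rw [h3] at h2
  exact h2

/-- **The case of a dominant root** `x₀`; `V_J`, `J = x₀^⊥`, has the sign character of `X x₀` on the torus. -/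
theorem main_dom (hp2 : p ≠ 2) (hσ : ∀ σ : Equiv.Perm I, (∀ i j, M (σ i) (σ j) = M i j) → σ ^ 2 = 1)
    {x₀ : I → ℤ} (hx₀ : IsRoot cs h x₀) (hdom : Dom A x₀)
    (hβ : ∀ t ∈ T, sv (VJ cs h X (orth cs h x₀)) t = sv (X x₀) t) {i : I} {w₁ : W}
    (hw₁ : rep cs h w₁ x₀ = sr i)
    (hsep : ∀ w, (∀ t ∈ T, sv (X (rep cs h w x₀)) t = sv (X x₀) t) → rep cs h w x₀ = x₀ ∨ rep cs h w x₀ = -x₀)
    (hd : ∃ w, rep cs h w x₀ ≠ x₀ ∧ rep cs h w x₀ ≠ -x₀) (Au : Subgroup (MulAut Y)) (hAu : IsPGroup p Au) :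
    ∃ θ : Y → ℂ, IsIrrCharacter Y θ ∧ θ ≠ 1 ∧ (∃ d : ℕ, θ 1 = d ∧ ¬ p ∣ d) ∧ (∀ g, ∃ k : ℤ, θ g = k) ∧
      ∀ a ∈ Au, ∀ x, θ (a x) = θ x := by
  classical
  have : Fintype Y := Fintype.ofFinite Y
  set J : Set I := orth cs h x₀ with hJ
  set V : Subgroup Y := VJ cs h X J with hVdef
  set P := Subgroup.normalizer (V : Set Y) with hP
  set Q := PJ cs h T X {i} with hQ
  have hPJ : P = PJ cs h T X J := norm_VJ R hG J
  have hV : RGD.B cs h T X ≤ P := by rw [hPJ]; exact B_le_PJ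
  have hT : T ≤ P := RGD.T_le_B.trans hV
  have hcell : ∀ g : Y, ∃ w, Cell R.nsys cs h X w g := fun g => (mem_GG R).1 (hG ▸ Subgroup.mem_top g)
  have hTk : ∀ {w : W} {k t : Y}, Rp cs R.nsys w k → t ∈ T → k⁻¹ * t * k ∈ T := by
    intro w k t hk ht
    have := (Subgroup.mem_normalizer_iff.1 (inv_mem hk.mem_normalizer) t).1 ht
    rwa [inv_inv] at this
  have hconj : ∀ {w : W} {k : Y}, Rp cs R.nsys w k → (X x₀).map (MulAut.conj k).toMonoidHom = X (rep cs h w x₀) :=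
    fun hk => R.conj_rp hk hx₀
  have hsv : ∀ {w : W} {k : Y} (t : Y), t ∈ T → Rp cs R.nsys w k → sv V (k⁻¹ * t * k) = sv (X (rep cs h w x₀)) t := by
    intro w k t ht hk
    rw [hβ _ (hTk hk ht), ← hconj hk, ← sv_conj (X x₀) k (k⁻¹ * t * k)]
    congr 1
    group
  have hmem : ∀ {w : W} {k : Y}, Rp cs R.nsys w k → rep cs h w x₀ = x₀ → k ∈ P := by
    intro w k hk hw
    rw [hPJ]
    exact LJ_le_PJ (rp_mem_LJ R (mem_WJ_of_rep hdom hw) hk)
  have hneg : ∀ {w v : W}, rep cs h w x₀ = rep cs h v x₀ → rep cs h (v⁻¹ * w) x₀ = x₀ := by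
    intro w v e
    rw [rep_mul_apply, e, ← rep_mul_apply, inv_mul_cancel, map_one, Module.End.one_apply]
  obtain ⟨k₁, hk₁⟩ := exists_rp cs R.nsys w₁
  -- the opposite
  set w' := w₁⁻¹ * (cs.simple i * w₁) with hw'
  have hopp : rep cs h w' x₀ = -x₀ := by
    rw [hw', rep_mul_apply, rep_mul_apply, hw₁, rep_simple_sr, map_neg]
    congr 1
    rw [← hw₁, ← rep_mul_apply, inv_mul_cancel, map_one, Module.End.one_apply]
  obtain ⟨k₀, hk₀⟩ := exists_rp cs R.nsys w'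
  -- norm
  obtain ⟨N, hN, hN2⟩ := inner_le_two (A := P) (B := P) (ξ := cu (sg V)) (ξ' := cu (sg V)) 1 k₀ (by
    intro g hg
    obtain ⟨w, b₁, hb₁, k, hk, b₂, hb₂, rfl⟩ := hcell g
    have hg' : Good P P (cu (sg V)) (cu (sg V)) k :=
      (good_mul_iff (⟨b₁, hV hb₁⟩ : P) (⟨b₂, hV hb₂⟩ : P)).1 hg
    have h1 : ∀ t ∈ T, sv (X (rep cs h w x₀)) t = sv (X x₀) t := by
      intro t ht
      have h2 := hg' ⟨t, hT ht⟩ ⟨k⁻¹ * t * k, hT (hTk hk ht)⟩ rfl
      rw [cu_eq_iff, ← sv_eq (hT (hTk hk ht)), ← sv_eq (hT ht), hsv t ht hk, hβ t ht] at h2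
      exact h2.symm
    rcases hsep w h1 with h2 | h2
    · exact Or.inl ⟨b₁ * k * b₂, mul_mem (mul_mem (hV hb₁) (hmem hk h2)) (hV hb₂), 1, one_mem _,
        by rw [mul_one, mul_one]⟩
    · refine Or.inr ⟨b₁, hV hb₁, k₀⁻¹ * k * b₂, mul_mem ?_ (hV hb₂), by group⟩
      exact hmem (hk₀.inv.mul hk) (hneg (by rw [h2, hopp])))
  -- the inner product
  have hle : PJ cs h T X J ≤ P := hPJ.ge
  have htr : ∀ (x : Q) (k : ℕ), x ^ p ^ k = 1 → cu (sq Q (RGD.B cs h T X)) x = 1 := by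
    intro x k hx
    have h1 := sq_of_odd Q (RGD.B cs h T X) x ((hp.out.odd_of_ne_two hp2).pow (n := k)) hx
    apply Units.ext
    rw [cu_apply, h1]
    simp
  have htr' : ∀ (x : ↥(PJ cs h T X J)) (k : ℕ), x ^ p ^ k = 1 →
      (cu ((sg V).comp (Subgroup.inclusion hle))) x = 1 := by
    intro x k hx
    have h1 := sg_of_odd V (Subgroup.inclusion hle x) ((hp.out.odd_of_ne_two hp2).pow (n := k)) (by
      rw [← map_pow, hx, map_one])
    apply Units.ext
    rw [cu_apply, MonoidHom.comp_apply, h1]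
    simp
  have hTAg : TAg (T := T) (X := X) (cs := cs) (h := h) (cu (sq Q (RGD.B cs h T X)))
      (cu ((sg V).comp (Subgroup.inclusion hle))) k₁ := by
    intro t ht h1 h2
    rw [cu_eq_iff, sq_T R i ht, MonoidHom.comp_apply]
    have h3 := hsv t ht hk₁
    rw [hw₁] at h3
    rw [← h3, sv_eq (hle h2)]
    rfl
  have hAg := (ag_iff R hk₁ htr htr').2 hTAg
  have hinner : classInner (indFun Q fun x => (cu (sq Q (RGD.B cs h T X)) x : ℂ)) (Psi V) = 1 := by
    refine inner_eq_one (A := Q) (B := P) (ξ := cu (sq Q (RGD.B cs h T X))) (ξ' := cu (sg V)) (g₁ := k₁) ?_ ?_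
    · rintro ⟨a, ha⟩ ⟨b, hb0⟩ hab
      change b = k₁⁻¹ * a * k₁ at hab
      subst hab
      have h1 := hAg ⟨a, ha⟩ (by rw [← hPJ]; exact hb0)
      rw [h1]
      rfl
    · intro g hg
      obtain ⟨w, b₁, hb₁, k, hk, b₂, hb₂, rfl⟩ := hcell g
      have hg' : Good Q P (cu (sq Q (RGD.B cs h T X))) (cu (sg V)) k :=
        (good_mul_iff (⟨b₁, B_le_PJ hb₁⟩ : Q) (⟨b₂, hV hb₂⟩ : P)).1 hg
      have h1 : ∀ t ∈ T, sv (X (rep cs h (w₁⁻¹ * w) x₀)) t = sv (X x₀) t := by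
        intro t ht
        have hkk : Rp cs R.nsys (w₁⁻¹ * w) (k₁⁻¹ * k) := hk₁.inv.mul hk
        have ht' : k₁ * t * k₁⁻¹ ∈ T := (Subgroup.mem_normalizer_iff.1 hk₁.mem_normalizer t).1 ht
        have h2 := hg' ⟨_, B_le_PJ (RGD.T_le_B ht')⟩ ⟨k⁻¹ * (k₁ * t * k₁⁻¹) * k, hT (hTk hk ht')⟩ rfl
        rw [cu_eq_iff, sq_T R i ht', ← sv_eq (hT (hTk hk ht'))] at h2
        rw [← hsv t ht hkk]
        have e : (k₁⁻¹ * k)⁻¹ * t * (k₁⁻¹ * k) = k⁻¹ * (k₁ * t * k₁⁻¹) * k := by group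
        rw [e, ← h2, ← hw₁, ← hconj hk₁, sv_conj]
      have hs2 : ∀ v : W, rep cs h w₁ (rep cs h (w₁⁻¹ * v) x₀) = rep cs h v x₀ := by
        intro v
        rw [← rep_mul_apply, mul_inv_cancel_left]
      rcases hsep _ h1 with h2 | h2
      · exact ⟨b₁, B_le_PJ hb₁, k₁⁻¹ * k * b₂, mul_mem (hmem (hk₁.inv.mul hk) h2) (hV hb₂), by group⟩
      · have h3 : rep cs h w x₀ = -sr i := by
          rw [← hs2 w, h2, map_neg, hw₁]
        refine ⟨b₁ * n i, mul_mem (B_le_PJ hb₁) (n_mem_P R i), (n i * k₁)⁻¹ * k * b₂, mul_mem ?_ (hV hb₂), by group⟩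
        refine hmem ((((rp_simple cs R.nsys i).mul hk₁).inv).mul hk) (hneg ?_)
        rw [h3, rep_mul_apply, hw₁, rep_simple_sr]
  have hinner' : classInner (Psi V) (indFun Q fun x => (cu (sq Q (RGD.B cs h T X)) x : ℂ)) = 1 := by
    rw [← Characters.Core.classInner_conj_symm, hinner, map_one]
  refine odd_tool hp2 (ind_isCharacter P (cu (sg V))) (ind_isCharacter Q (cu (sq Q (RGD.B cs h T X)))) (ind_int P _)
    (ind_int Q _) hN hN2 hinner' ?_ ?_ Au hAu ?_
  · obtain ⟨t, ht, ht1⟩ : ∃ t ∈ T, sv V t ≠ 1 := by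
      by_contra hcon
      push Not at hcon
      obtain ⟨w, h1, h2⟩ := hd
      obtain ⟨k, hk⟩ := exists_rp cs R.nsys w
      rcases hsep w fun t ht => by
        rw [← hsv t ht hk, ← hβ t ht, hcon t ht, hcon _ (hTk hk ht)] with h3 | h3
      · exact h1 h3
      · exact h2 h3
    refine inner_one ⟨⟨t, hT ht⟩, fun h1 => ht1 ?_⟩
    rw [sv_eq (hT ht)]
    have h2 := congrArg (fun u : ℂˣ => (u : ℂ)) h1
    rw [cu_apply, Units.val_one] at h2
    exact Units.ext (by rw [Units.val_one]; exact_mod_cast h2)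
  · intro d hd' hpd
    rw [ind_one] at hd'
    have h1 : P.index = d := by exact_mod_cast hd'
    obtain ⟨S, hS⟩ := KFacts.RgdAutFacts.exists_sylow R hG
    have h2 : (S : Subgroup Y) ≤ P := by
      rw [hS]
      exact RGD.U_le_B.trans hV
    have h3 : ¬ p ∣ (S : Subgroup Y).index := S.not_dvd_index
    exact h3 ((h1 ▸ hpd : p ∣ P.index).trans (Subgroup.index_dvd_of_le h2))
  · intro a ha' x
    obtain ⟨m, hm⟩ := hAu ⟨a, ha'⟩
    have hm' : a ^ p ^ m = 1 := by simpa using congrArg Subtype.val hm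
    obtain ⟨g, hg⟩ := mem_StC_of_odd R hG hσ (V := V) (fun β hβ' => by
      rw [hVdef]
      unfold VJ RGD.Sup
      rw [Subgroup.map_iSup]
      exact iSup_congr fun z => hβ' _ z.2.1) (hp.out.odd_of_ne_two hp2).pow hm'
    exact Psi_aut hg x

end Main

section F4

open Cfsg.Lie Cfsg.Agent.ChevalleyStructure Cfsg.Agent.ChevalleyStructure.Elts
  Cfsg.Agent.ChevalleyStructure.NPerm Cfsg.Agent.ChevalleyStructure.CoxeterGeomTypes
  Cfsg.Agent.Nodes.RGDChev Cfsg.Agent.KFacts.RgdChevCoord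
open Cfsg.Agent.ChevalleyStructure.RootVec (rt)
open Cfsg.Agent.H798.Oc.Main Cfsg.Agent.H798.Oc.Scal Cfsg.Agent.H798.Oc.Untw Cfsg.Agent.H239.OCTab
open Cfsg.Agent.OddHalf.NI.ModelChev (th thT chH_thT chH)
open Cfsg.Agent.KFacts.RgdField (Coords)

/-- the short roots -/
def Ls : List ℕ := [3, 7, 8, 9, 10, 11, 12, 13, 14, 18, 19, 20, 27, 28, 29, 33, 34, 35, 36, 37, 38, 39, 40, 44]

theorem chk_F4 : chk chevF4 4 44 Ls = true := by decide +kernel
theorem move_F4 : chkMove chevF4 4 44 = true := by decide +kernel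

/-- the roots outside `J = {1, 2, 3}` -/
def Ln : Finset ℕ := Finset.Ico 33 48

theorem rt_Ln : ∀ r < 48, (r ∈ Ln ↔ (0 < rt chevF4 r 0 ∧ ∀ i < 4, 0 ≤ rt chevF4 r i)) := by decide +kernel

/-- parity -/
theorem parity_F4 : ∀ u : Fin 4 → ℤˣ, ∏ r ∈ Ln, ∏ i : Fin 4, u i ^ chevF4.cartan i r = ∏ i : Fin 4, u i ^ chevF4.cartan i 44 := by
  decide +kernel

theorem pair_F4 : ∀ i : Fin 4, chevF4.cartan i 44 = if i = 0 then 1 else 0 := by decide +kernel

theorem nroots_F4 : chevF4.nroots = 48 := by decide +kernel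

variable {K : Type} [Field K] [Finite K] {p : ℕ} [Fact p.Prime] [CharP K p]

theorem sv_th (R : Coords (CoxeterMatrix.F₄).toCoxeterSystem Nodes.KindF.isType.isCartan (TT chevF4 K)
      (nc Nodes.KindF.isType K) (XX chevF4 4 K) (xc Nodes.KindF.isType) (ch Nodes.KindF.isType)) (b : Fin 4 → Kˣ)
    {r : ℕ} (hr : r < chevF4.nroots) :
    sv (XX chevF4 4 K (vec chevF4 4 r)) (th Nodes.KindF.isType b) = ∏ i : Fin 4, qs K (b i) ^ chevF4.cartan i r := by
  have ht : th Nodes.KindF.isType b ∈ TT chevF4 K := (thT Nodes.KindF.isType b).2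
  have C := R.coord _ (isRoot_vec Nodes.KindF.isType (CoxeterMatrix.F₄).toCoxeterSystem hr)
  rw [sv_coord C ht (chi_ne_zero C ht)]
  have h1 : Units.mk0 _ (chi_ne_zero C ht) = ∏ i : Fin 4, b i ^ chevF4.cartan i r := by
    apply Units.ext
    rw [Units.val_mk0, Units.coe_prod]
    have h2 := chH_thT Nodes.KindF.isType hr b
    refine Eq.trans h2 (Finset.prod_congr rfl fun i _ => ?_)
    rw [Units.val_zpow_eq_zpow_val]
  rw [h1, map_prod]
  exact Finset.prod_congr rfl fun i _ => map_zpow _ _ _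

theorem notJ_F4 : NotJ (CoxeterMatrix.F₄).toCoxeterSystem Nodes.KindF.isType.isCartan
      (orth (CoxeterMatrix.F₄).toCoxeterSystem Nodes.KindF.isType.isCartan (vec chevF4 4 44)) =
    vec chevF4 4 '' (Ln : Set ℕ) := by
  have h44 : 44 < chevF4.nroots := by rw [nroots_F4]; norm_num
  have hJ : ∀ k : Fin 4, k ∉ orth (CoxeterMatrix.F₄).toCoxeterSystem Nodes.KindF.isType.isCartan (vec chevF4 4 44) ↔
      k = 0 := by
    intro k
    rw [mem_orth, pairing_vec Nodes.KindF.isType k h44, pair_F4]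
    split_ifs with h
    · simp [h]
    · simp [h]
  ext x
  constructor
  · rintro ⟨h1, h2, k, hk, hk2⟩
    obtain ⟨r, hr, rfl⟩ := (isRoot_iff Nodes.KindF.isType _ x).1 h1
    rw [hJ] at hk
    subst hk
    rw [nroots_F4] at hr
    exact ⟨r, (rt_Ln r hr).2 ⟨hk2, fun i hi => h2 ⟨i, hi⟩⟩, rfl⟩
  · rintro ⟨r, hr, rfl⟩
    have hr48 : r < 48 := (Finset.mem_Ico.1 hr).2
    obtain ⟨h1, h2⟩ := (rt_Ln r hr48).1 hr
    exact ⟨isRoot_vec Nodes.KindF.isType _ (by rw [nroots_F4]; exact hr48), fun i => h2 i i.2, 0, (hJ 0).2 rfl, h1⟩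

/-- **Row `F₄(q)`, `p ∣ q`, `p` odd.** -/
theorem ocRow_F4 (p : ℕ) [Fact p.Prime] (hp2 : p ≠ 2) (K : Type) [Field K] [Finite K] [CharP K p] :
    OCRow p ↥(chevF4.group K) := by
  intro Au hAu
  have : Fintype K := Fintype.ofFinite K
  have hW : Finite (CoxeterMatrix.F₄).Group := finite_W Nodes.KindF.isType (CoxeterMatrix.F₄).toCoxeterSystem
  have R := rgd (K := K) Nodes.KindF.isType (CoxeterMatrix.F₄).toCoxeterSystem p
  have hG := KFacts.RgdFilt.GG_eq_top (T := TT chevF4 K)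
    (G1_eq_top (K := K) Nodes.KindF.isType (CoxeterMatrix.F₄).toCoxeterSystem)
  have C := coords (K := K) Nodes.KindF.isType (CoxeterMatrix.F₄).toCoxeterSystem p
  have h44 : 44 < chevF4.nroots := by rw [nroots_F4]; norm_num
  have hx := isRoot_vec Nodes.KindF.isType (CoxeterMatrix.F₄).toCoxeterSystem h44
  have hx' := hx
  obtain ⟨u, i, hui⟩ := hx'
  have hodd : Odd (Nat.card K) := H798.Oc.Untw.odd_card (p := p) hp2
  have hw₁ : rep (CoxeterMatrix.F₄).toCoxeterSystem Nodes.KindF.isType.isCartan u⁻¹ (vec chevF4 4 44) = sr i := by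
    rw [hui, ← rep_mul_apply, inv_mul_cancel, map_one, Module.End.one_apply]
  have hdom : Dom (cartanOf chevF4 4) (vec chevF4 4 44) := by
    intro i
    rw [pairing_vec Nodes.KindF.isType i h44, pair_F4]
    split_ifs <;> norm_num
  obtain ⟨θ, t1, t2, t3, t4, t5⟩ := main_dom R hG hp2 CpAut.RgdUntw.symTwo_F4 hx hdom (fun t ht => by
    rw [sv_VJ R hp2 _ ht, notJ_F4, finprod_mem_image, finprod_mem_coe_finset]
    · obtain ⟨b, rfl⟩ := H557.ToralTypes.surj_F4 ht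
      rw [sv_th C b h44, ← parity_F4]
      refine Finset.prod_congr rfl fun r hr => sv_th C b ?_
      rw [nroots_F4]
      exact (Finset.mem_Ico.1 hr).2
    · intro r hr s hs h
      refine vec_inj Nodes.KindF.isType ?_ ?_ h
      · rw [nroots_F4]; exact (Finset.mem_Ico.1 hr).2
      · rw [nroots_F4]; exact (Finset.mem_Ico.1 hs).2) hw₁ (fun w hw => by
    refine sep Nodes.KindF.isType (CoxeterMatrix.F₄).toCoxeterSystem chk_F4 (K := K) (exists_nonsquare hodd) w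
      fun t ht => ?_
    have hr := hx.act (h := Nodes.KindF.isType.isCartan) w
    rw [← sv_eq_one_iff hodd (C.coord _ hr) ht, ← sv_eq_one_iff hodd (C.coord _ hx) ht, hw t ht])
    (move_spec Nodes.KindF.isType (CoxeterMatrix.F₄).toCoxeterSystem h44 move_F4) Au hAu
  exact ⟨θ, t1, t2, t3, H145.BR.pRat_of_int t4, t5⟩

end F4

end Cfsg.Agent.H993.OC.F4
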