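import Cfsg.Agent.H993.OC.Row

/-!
# S4891, defining characteristic: assembly (helper993)

`OCRows p` : the rows for the concrete groups;  `OCRows.lie` : the field `lie` of `H145.BR.Rows`.
-/

set_option autoImplicit false

open Cfsg

namespace Cfsg.Agent.H993.OC

open Cfsg.Agent.H145.BR

/-- **the rows of the defining characteristic** -/
structure OCRows (p : ℕ) : Prop where
  psl2 : ∀ (F : Type) [Field F] [Fintype F] [CharP F p], 4 ≤ Fintype.card F →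
    ∀ (X : Type) [Group X] [Finite X] [IsSimpleGroup X],
      (X ≃* Matrix.ProjectiveSpecialLinearGroup (Fin 2) F) → Row p X
  psl : ∀ (F : Type) [Field F] [Fintype F] [CharP F p] (n : ℕ), 3 ≤ n →
    OCRow p (Matrix.ProjectiveSpecialLinearGroup (Fin n) F)
  psp : ∀ (F : Type) [Field F] [Fintype F] [CharP F p] (m : ℕ), 2 ≤ m → OCRow p (PSp m F)
  psu : ∀ (F : Type) [Field F] [Fintype F] [CharP F p] (n q : ℕ), Fintype.card F = q ^ 2 → 3 ≤ n → OCRow p (PSU n F q)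
  oodd : ∀ (F : Type) [Field F] [Fintype F] [CharP F p] (m : ℕ), 3 ≤ m → OCRow p (POmega F (quadFormOdd m F))
  oplus : ∀ (F : Type) [Field F] [Fintype F] [CharP F p] (m : ℕ), 4 ≤ m → OCRow p (POmega F (quadFormPlus m F))
  ominus : ∀ (F : Type) [Field F] [Fintype F] [CharP F p] (m : ℕ) (a b : F), 4 ≤ m →
    (∀ z₁ z₂ : F, z₁ ^ 2 + a * z₁ * z₂ + b * z₂ ^ 2 = 0 → z₁ = 0 ∧ z₂ = 0) →
    OCRow p (POmega F (quadFormMinus (m - 1) F a b))
  g2 : ∀ (F : Type) [Field F] [Fintype F] [CharP F p], 3 ≤ Fintype.card F → OCRow p (Lie.chevG2.group F)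
  f4 : ∀ (F : Type) [Field F] [Fintype F] [CharP F p], OCRow p (Lie.chevF4.group F)
  e6 : ∀ (F : Type) [Field F] [Fintype F] [CharP F p], OCRow p (Lie.chevE6.group F)
  e7 : ∀ (F : Type) [Field F] [Fintype F] [CharP F p], OCRow p (Lie.chevE7.group F)
  e8 : ∀ (F : Type) [Field F] [Fintype F] [CharP F p], OCRow p (Lie.chevE8.group F)
  te6 : ∀ (K : Type) [Field K] [Fintype K] [CharP K p] (q : ℕ), IsPrimePow q → Fintype.card K = q ^ 2 →
    OCRow p (Lie.twistedE6 K q)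
  td4 : ∀ (K : Type) [Field K] [Fintype K] [CharP K p] (q : ℕ), IsPrimePow q → Fintype.card K = q ^ 3 →
    OCRow p (Lie.twistedD4 K q)
  ree : p = 3 → ∀ (K : Type) [Field K] [Fintype K] (m : ℕ), 1 ≤ m → Fintype.card K = 3 ^ (2 * m + 1) →
    OCRow 3 (Lie.twistedG2 K (3 ^ m))

/-- **the field `lie`** -/
theorem OCRows.lie {p : ℕ} [Fact p.Prime] (hp2 : p ≠ 2) (R : OCRows p) : RowFor p (fun X _ => IsLieTypeChar p X) := by
  intro X _ _ _ hna _ _ hX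
  have hT : OCRow p X → Row p X := fun h => (h.rowT hp2 hna hX).row
  rcases id hX with h | h | h | h | h | h | h | h | ⟨h, -⟩ | ⟨h, -⟩ | ⟨h3, hR⟩
  · obtain ⟨F, _, _, _, n, hn, hF, ⟨e⟩⟩ := h
    by_cases h2 : n = 2
    · subst h2
      exact R.psl2 F (hF rfl) X e
    · exact hT ((R.psl F n (by omega)).of_equiv e)
  · obtain ⟨F, _, _, _, m, hm, -, ⟨e⟩⟩ := h
    exact hT ((R.psp F m hm).of_equiv e)
  · obtain ⟨F, _, _, _, n, q, hF, hn, -, ⟨e⟩⟩ := h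
    exact hT ((R.psu F n q hF hn).of_equiv e)
  · obtain ⟨F, _, _, _, m, hm, -, ⟨e⟩⟩ := h
    exact hT ((R.oodd F m hm).of_equiv e)
  · obtain ⟨F, _, _, _, m, hm, ⟨e⟩⟩ := h
    exact hT ((R.oplus F m hm).of_equiv e)
  · obtain ⟨F, _, _, _, m, a, b, hm, hab, ⟨e⟩⟩ := h
    exact hT ((R.ominus F m a b hm hab).of_equiv e)
  · obtain ⟨F, _, _, _, ⟨h3, ⟨e⟩⟩ | ⟨⟨e⟩⟩ | ⟨⟨e⟩⟩ | ⟨⟨e⟩⟩ | ⟨⟨e⟩⟩⟩ := h
    · exact hT ((R.g2 F h3).of_equiv e)
    · exact hT ((R.f4 F).of_equiv e)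
    · exact hT ((R.e6 F).of_equiv e)
    · exact hT ((R.e7 F).of_equiv e)
    · exact hT ((R.e8 F).of_equiv e)
  · obtain ⟨K, _, _, _, q, hq, ⟨hK, ⟨e⟩⟩ | ⟨hK, ⟨e⟩⟩⟩ := h
    · exact hT ((R.te6 K q hq hK).of_equiv e)
    · exact hT ((R.td4 K q hq hK).of_equiv e)
  · exact absurd h hp2
  · exact absurd h hp2
  · obtain ⟨K, _, _, m, hm, hK, ⟨e⟩⟩ := hR
    subst h3
    exact hT ((R.ree rfl K m hm hK).of_equiv e)

end Cfsg.Agent.H993.OC
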