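import Cfsg.Agent.H993.OC.Defs

/-!
# S4891, defining characteristic: the semilinear action on a root group (helper993)

`RootDat p S K` : a Sylow `p`-subgroup `U`, a subgroup `X = ξ(K) ≤ U` normalised by the automorphisms normalising `U`,
`P = N_S(X)` acting on `X` by the scalars `μ : P → Kˣ` which generate `K`.

`RootDat.exists_sem` : every automorphism normalising `X` acts on `X` by `a ↦ m * σ a`.
-/

set_option autoImplicit false

open Cfsg

namespace Cfsg.Agent.H993.OC

universe u v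

/-- a root group with its normaliser -/
structure RootDat (p : ℕ) [Fact p.Prime] (S : Type u) [Group S] (K : Type v) [Field K] where
  /-- a Sylow subgroup -/
  U : Sylow p S
  /-- the parametrisation of the root group -/
  ξ : K → S
  ξ_add : ∀ a b, ξ (a + b) = ξ a * ξ b
  ξ_inj : Function.Injective ξ
  /-- the root group -/
  X : Subgroup S
  mem_X : ∀ s, s ∈ X ↔ ∃ a, ξ a = s
  X_le : X ≤ U
  hchar : ∀ α : MulAut S, (U : Subgroup S).map α.toMonoidHom = U → X.map α.toMonoidHom = X
  /-- its normaliser -/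
  P : Subgroup S
  mem_P : ∀ g, g ∈ P ↔ X.map (MulAut.conj g).toMonoidHom = X
  /-- the scalars -/
  μ : P →* Kˣ
  hμ : ∀ (g : P) (a : K), (g : S) * ξ a * (g : S)⁻¹ = ξ (μ g * a)
  hgen : ∀ R : Subring K, (∀ g, (μ g : K) ∈ R) → R = ⊤

variable {p : ℕ} [Fact p.Prime] {S : Type u} [Group S] {K : Type v} [Field K] (D : RootDat p S K)

namespace RootDat

theorem ξ_zero : D.ξ 0 = 1 := by
  have h := D.ξ_add 0 0
  rw [add_zero] at h
  exact (mul_eq_left.1 h.symm)

/-- `α` acts on the root group by `a ↦ m * σ a` -/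
def Sem (α : MulAut S) (m : Kˣ) (σ : K ≃+* K) : Prop := ∀ a, α (D.ξ a) = D.ξ (m * σ a)

variable {D}

theorem Sem.unique {α : MulAut S} {m m' : Kˣ} {σ σ' : K ≃+* K} (h : D.Sem α m σ) (h' : D.Sem α m' σ') :
    m = m' ∧ σ = σ' := by
  have h1 : m = m' := by
    have := D.ξ_inj ((h 1).symm.trans (h' 1))
    rw [map_one, map_one, mul_one, mul_one] at this
    exact Units.ext this
  refine ⟨h1, RingEquiv.ext fun a => ?_⟩
  have := D.ξ_inj ((h a).symm.trans (h' a))
  rw [h1] at this
  exact mul_left_cancel₀ m'.ne_zero this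

theorem Sem.mul {α β : MulAut S} {m n : Kˣ} {σ τ : K ≃+* K} (h : D.Sem α m σ) (h' : D.Sem β n τ) :
    D.Sem (α * β) (m * Units.map (σ : K →* K) n) (σ * τ) := by
  intro a
  rw [MulAut.mul_apply, h', h, map_mul, Units.val_mul, Units.coe_map, mul_assoc]
  rfl

theorem Sem.one : D.Sem 1 1 1 := fun a => by
  rw [MulAut.one_apply, Units.val_one, one_mul]
  rfl

theorem Sem.conj (g : D.P) : D.Sem (MulAut.conj (g : S)) (D.μ g) 1 := fun a => by
  rw [MulAut.conj_apply, D.hμ]
  rfl

theorem Sem.map_X {α : MulAut S} {m : Kˣ} {σ : K ≃+* K} (h : D.Sem α m σ) : D.X.map α.toMonoidHom = D.X := by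
  ext s
  rw [Subgroup.mem_map]
  constructor
  · rintro ⟨t, ht, rfl⟩
    obtain ⟨a, rfl⟩ := (D.mem_X t).1 ht
    exact (D.mem_X _).2 ⟨_, (h a).symm⟩
  · intro hs
    obtain ⟨a, rfl⟩ := (D.mem_X s).1 hs
    refine ⟨D.ξ (σ.symm (((m⁻¹ : Kˣ) : K) * a)), (D.mem_X _).2 ⟨_, rfl⟩, ?_⟩
    change α (D.ξ _) = _
    rw [h, RingEquiv.apply_symm_apply, Units.mul_inv_cancel_left]

theorem apply_mem_P {α : MulAut S} (hα : D.X.map α.toMonoidHom = D.X) {g : S} (hg : g ∈ D.P) : α g ∈ D.P := by
  rw [D.mem_P] at hg ⊢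
  have h1 : D.X.map (α⁻¹ : MulAut S).toMonoidHom = D.X := by
    conv_lhs => rw [← hα]
    rw [Subgroup.map_map]
    have : (α⁻¹ : MulAut S).toMonoidHom.comp α.toMonoidHom = MonoidHom.id S := by
      ext s
      exact MulAut.inv_apply_self S α s
    rw [this, Subgroup.map_id]
  have h2 : (MulAut.conj (α g)).toMonoidHom = (α.toMonoidHom.comp (MulAut.conj g).toMonoidHom).comp
      (α⁻¹ : MulAut S).toMonoidHom := by
    ext s
    change α g * s * (α g)⁻¹ = α (g * (α⁻¹ : MulAut S) s * g⁻¹)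
    rw [map_mul, map_mul, map_inv, MulAut.apply_inv_self]
  rw [h2, ← Subgroup.map_map, h1, ← Subgroup.map_map, hg, hα]

theorem Sem.μ {α : MulAut S} {m : Kˣ} {σ : K ≃+* K} (h : D.Sem α m σ) (g : D.P) (hg : α g ∈ D.P) :
    D.μ ⟨α g, hg⟩ = Units.map (σ : K →* K) (D.μ g) := by
  have h1 := D.hμ ⟨α g, hg⟩ (m * σ 1)
  rw [← h 1] at h1
  change α g * α (D.ξ 1) * (α g)⁻¹ = _ at h1
  rw [← map_inv, ← map_mul, ← map_mul, D.hμ, h] at h1
  have h2 := D.ξ_inj h1
  rw [mul_one, map_one, mul_one] at h2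
  apply Units.ext
  rw [Units.coe_map]
  have h3 : (m : K) * σ (D.μ g) = m * (D.μ ⟨α g, hg⟩ : K) := by rw [h2, mul_comm]
  exact (mul_left_cancel₀ m.ne_zero h3).symm

/-- **every automorphism normalising `X` is semilinear on `X`** -/
theorem exists_sem {α : MulAut S} (hα : D.X.map α.toMonoidHom = D.X) : ∃ m σ, D.Sem α m σ := by
  classical
  have hX : ∀ a, ∃ b, D.ξ b = α (D.ξ a) := fun a => by
    rw [← D.mem_X, ← hα]
    exact ⟨_, (D.mem_X _).2 ⟨a, rfl⟩, rfl⟩
  choose r hr using hX
  have hadd : ∀ a b, r (a + b) = r a + r b := fun a b => D.ξ_inj (by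
    rw [hr, D.ξ_add, map_mul, D.ξ_add, hr, hr])
  have hinj : Function.Injective r := fun a b h => D.ξ_inj (α.injective (by rw [← hr, ← hr, h]))
  have hr0 : r 0 = 0 := by
    have := hadd 0 0
    rw [add_zero] at this
    exact (add_eq_left.1 this.symm)
  have hr1 : r 1 ≠ 0 := fun h => one_ne_zero (hinj (h.trans hr0.symm))
  have hsurj : Function.Surjective r := by
    intro b
    have hb : D.ξ b ∈ D.X.map α.toMonoidHom := by rw [hα]; exact (D.mem_X _).2 ⟨b, rfl⟩
    obtain ⟨t, ht, hb⟩ := hb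
    obtain ⟨a, rfl⟩ := (D.mem_X t).1 ht
    exact ⟨a, D.ξ_inj ((hr a).trans hb)⟩
  -- the ring of the `a` with `r (a b) r 1 = r a r b`
  let R : Subring K :=
    { carrier := {a | ∀ b, r (a * b) * r 1 = r a * r b}
      mul_mem' := by
        intro a a' h h' b
        apply mul_right_cancel₀ hr1
        have e1 := h (a' * b)
        have e2 := h a'
        have e3 := h' b
        calc r (a * a' * b) * r 1 * r 1 = r (a * (a' * b)) * r 1 * r 1 := by rw [mul_assoc a]
          _ = r a * (r (a' * b) * r 1) := by rw [e1]; ring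
          _ = (r a * r a') * r b := by rw [e3]; ring
          _ = r (a * a') * r b * r 1 := by rw [← e2]; ring
      one_mem' := fun b => by rw [one_mul, mul_comm]
      add_mem' := by
        intro a a' h h' b
        rw [add_mul, hadd, hadd, add_mul, h b, h' b, add_mul]
      zero_mem' := fun b => by rw [zero_mul, hr0, zero_mul, zero_mul]
      neg_mem' := by
        intro a h b
        have hneg : ∀ x, r (-x) = - r x := fun x => by
          have := hadd (-x) x
          rw [neg_add_cancel, hr0] at this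
          exact eq_neg_of_add_eq_zero_left this.symm
        rw [neg_mul, hneg, hneg, neg_mul, h b, neg_mul] }
  have hRtop : R = ⊤ := D.hgen R fun g b => by
    have hg := apply_mem_P hα g.2
    have key : ∀ b, r ((D.μ g : K) * b) = D.μ ⟨α g, hg⟩ * r b := fun b => D.ξ_inj (by
      rw [hr, ← D.hμ, map_mul, map_mul, map_inv, ← hr b]
      exact D.hμ ⟨α g, hg⟩ (r b))
    have h1 := key 1
    rw [mul_one] at h1
    rw [key, h1]
    ring
  have hmul : ∀ a b, r (a * b) * r 1 = r a * r b := fun a => by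
    have : a ∈ R := by rw [hRtop]; trivial
    exact this
  let f : K →+* K :=
    { toFun := fun a => (r 1)⁻¹ * r a
      map_one' := inv_mul_cancel₀ hr1
      map_mul' := fun a b => by
        apply mul_left_cancel₀ hr1
        apply mul_left_cancel₀ hr1
        have := hmul a b
        calc r 1 * (r 1 * ((r 1)⁻¹ * r (a * b))) = r (a * b) * r 1 := by
              rw [mul_inv_cancel_left₀ hr1, mul_comm]
          _ = r a * r b := this
          _ = r 1 * (r 1 * ((r 1)⁻¹ * r a * ((r 1)⁻¹ * r b))) := by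
              field_simp
      map_zero' := by rw [hr0, mul_zero]
      map_add' := fun a b => by rw [hadd, mul_add] }
  have hf : Function.Bijective f := by
    refine ⟨f.injective, fun b => ?_⟩
    obtain ⟨a, ha⟩ := hsurj (r 1 * b)
    refine ⟨a, ?_⟩
    change (r 1)⁻¹ * r a = b
    rw [ha, inv_mul_cancel_left₀ hr1]
  refine ⟨Units.mk0 (r 1) hr1, RingEquiv.ofBijective f hf, fun a => ?_⟩
  rw [← hr]
  congr 1
  change r a = r 1 * ((r 1)⁻¹ * r a)
  rw [mul_inv_cancel_left₀ hr1]

end RootDat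

end Cfsg.Agent.H993.OC
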